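import Mathlib
import Cfsg.Agent.Lib.ChevAut.SubField
import Cfsg.Agent.Lib.BorelTits50
import Cfsg.Agent.Lib.ChevInv.CentG1

/-!
# Rational points of parabolic cosets, and overgroups of a subfield subgroup

For an automorphism `f` of the field, `σ` its entrywise action:
* if `g⁻¹ σ(g) ∈ P_J` then `g ∈ a P_J` with `σ(a) = a`;
* an element commuting with the root elements `x_r(1)` of a unipotent radical lies in `U`;
* if `H` contains `G_σ` and `H ∩ U` is fixed by `σ`, then `H ∩ P_J` is fixed by `σ` for `J` proper,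
  and the normalizers in `H` of nontrivial `p`-subgroups of `G_σ` are fixed by `σ`.
-/

set_option autoImplicit false
set_option linter.unusedSectionVars false
set_option linter.unusedVariables false
set_option linter.unnecessarySimpa false

namespace Cfsg.Agent.Lib.ChevSub

open Cfsg Cfsg.Lie Matrix Cfsg.Agent.Lib.Chev Cfsg.Agent.Lib.Chev.Full Cfsg.Agent.Lib.Chev.Tri
open Cfsg.Agent.Lib.ChevTransfer Cfsg.Agent.Lib.ChevAut.SubField Cfsg.Agent.Lib.ChevAut.WClosed
open Cfsg.Agent.Lib.ChevAut.ParabFit Cfsg.Agent.Lib.ChevInv Cfsg.Agent.Lib.ChevInv.CentG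

variable {T : Tabs} {X : Extra} {R : RootTab} {D : ChevalleyDatum} (hF : Full T X R D)
variable {F : Type*} [Field F] (f : F ≃+* F)

include hF

theorem sig_U {u : GL D.Idx F} (hu : u ∈ D.posUnipotent F) : glMap D f u ∈ D.posUnipotent F :=
  sig_rootClosure hF f (Q := D.IsPosRoot) hu

theorem sig_borel {b : GL D.Idx F} (hb : b ∈ D.borelSubgroup F) : glMap D f b ∈ D.borelSubgroup F := by
  obtain ⟨u, hu, t, ht, rfl⟩ := hF.mem_borel_iff.1 hb
  rw [map_mul]
  exact mul_mem (U_le_B hF (sig_U hF f hu)) (hF.c.diagonal_le_borel (sig_diagonal hF f ht))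

theorem sig_parabolic (J : Set ℕ) {p : GL D.Idx F} (hp : p ∈ D.parabolicSubgroup F J) :
    glMap D f p ∈ D.parabolicSubgroup F J := by
  have h : D.parabolicSubgroup F J ≤
      (D.parabolicSubgroup F J).comap (glMap D f).toMonoidHom := by
    apply sup_le
    · intro b hb
      exact hF.borel_le_parabolic J (sig_borel hF f hb)
    · rw [Subgroup.closure_le]
      rintro g ⟨j, hjJ, hj, hg⟩
      have e : g = hF.nS j := by
        apply Units.ext
        rw [hg, hF.coe_nS]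
      show glMap D f g ∈ D.parabolicSubgroup F J
      rw [e, sig_nS hF f j]
      exact hF.nS_mem_parabolic hj hjJ
  exact h hp

omit hF in
/-- The functional vanishing on `J` and equal to one off `J`. -/
noncomputable def aJ (J : Set ℕ) : ℕ → ℤ := by
  classical exact fun j => if j ∈ J then 0 else 1

omit hF in
theorem aJ_nonneg (J : Set ℕ) (j : ℕ) : 0 ≤ aJ J j := by
  unfold aJ
  split_ifs <;> omega

theorem lin_aJ_nonneg_of_pos (J : Set ℕ) {r : ℕ} (hr : r < D.nroots) (hpos : R.N ≤ r) :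
    0 ≤ R.lin D.rank (aJ J) r := by
  unfold RootTab.lin
  apply Finset.sum_nonneg
  intro j hj
  exact mul_nonneg (aJ_nonneg J j) (hF.rc_nonneg hr hpos (Finset.mem_range.1 hj))

theorem lin_aJ_of_sub {J : Set ℕ} {r : ℕ} (h : D.InRootSub J r) : R.lin D.rank (aJ J) r = 0 := by
  obtain ⟨hr, h2⟩ := hF.inRootSub_iff.1 h
  unfold RootTab.lin
  apply Finset.sum_eq_zero
  intro j hj
  by_cases hjJ : j ∈ J
  · simp [aJ, hjJ]
  · rw [h2 j (Finset.mem_range.1 hj) hjJ, mul_zero]

theorem inRootSub_of_lin {J : Set ℕ} {r : ℕ} (hr : r < D.nroots) (hneg : r < R.N)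
    (h : 0 ≤ R.lin D.rank (aJ J) r) : D.InRootSub J r := by
  refine hF.inRootSub_iff.2 ⟨hr, fun i hi hiJ => ?_⟩
  by_contra hne
  have h1 : R.rcAt r i < 0 := lt_of_le_of_ne (hF.rc_nonpos hneg hi) hne
  have h2 : R.lin D.rank (aJ J) r < 0 := by
    unfold RootTab.lin
    apply Finset.sum_neg'
    · intro j hj
      exact mul_nonpos_of_nonneg_of_nonpos (aJ_nonneg J j) (hF.rc_nonpos hneg (Finset.mem_range.1 hj))
    · refine ⟨i, Finset.mem_range.2 hi, ?_⟩
      simp [aJ, hiJ, h1]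
  omega

theorem xG_mem_parabolic_of_lin (J : Set ℕ) {r : ℕ} (hr : r < D.nroots)
    (h : 0 ≤ R.lin D.rank (aJ J) r) (t : F) : hF.c.xG r t ∈ D.parabolicSubgroup F J := by
  by_cases hpos : R.N ≤ r
  · exact hF.borel_le_parabolic J (U_le_B hF (hF.xG_mem_U hr hpos t))
  · exact hF.xG_mem_parabolic (inRootSub_of_lin hF hr (by omega) h) t

theorem parabolic_le_Tri (J : Set ℕ) {ℓ : D.Idx → ℕ} {M : ℤ}
    (hℓ : ∀ b, (ℓ b : ℤ) = gr R D (aJ J) b + M) :
    D.parabolicSubgroup F J ≤ Tri (F := F) ℓ := by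
  rw [hF.parabolic_eq]
  apply sup_le (hF.diagonal_le_Tri ℓ)
  rw [Subgroup.closure_le]
  rintro g ⟨r, t, hr, hg⟩
  have e := hF.c.eq_xG hg
  rw [SetLike.mem_coe, e]
  rcases hr with hr | hr
  · obtain ⟨h1, h2⟩ := hF.isPos_iff.1 hr
    exact xG_mem_Tri hF hℓ h1 (lin_aJ_nonneg_of_pos hF J h1 h2) t
  · have h1 := (hF.inRootSub_iff.1 hr).1
    exact xG_mem_Tri hF hℓ h1 (by rw [lin_aJ_of_sub hF hr]) t

omit hF in
theorem gr_neg (a : ℕ → ℤ) (b : D.Idx) : gr R D (fun j => - a j) b = - gr R D a b := by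
  unfold gr
  rw [← Finset.sum_neg_distrib]
  apply Finset.sum_congr rfl
  intro j _
  ring

omit hF in
theorem lin_neg' (a : ℕ → ℤ) (s : ℕ) : R.lin D.rank (fun j => - a j) s = - R.lin D.rank a s := by
  unfold RootTab.lin
  rw [← Finset.sum_neg_distrib]
  apply Finset.sum_congr rfl
  intro j _
  ring

theorem eq_one_of_parab (J : Set ℕ) {z : GL D.Idx F} (h1 : z ∈ D.parabolicSubgroup F J)
    (h2 : z ∈ rootClosure D F (fun s => s < D.nroots ∧ R.lin D.rank (aJ J) s < 0)) : z = 1 := by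
  obtain ⟨ℓ, d, M, hd, hℓ⟩ := Full.exists_lev R D (aJ J)
  obtain ⟨ℓ', d', M', hd', hℓ'⟩ := Full.exists_lev R D (fun j => - aJ J j)
  have h3 : z ∈ UT (F := F) ℓ' 0 d' hd' := by
    refine rootClosure_le_UT hF hℓ' (Q := fun s => s < D.nroots ∧ R.lin D.rank (aJ J) s < 0) ?_ h2
    rintro s ⟨h4, h5⟩
    refine ⟨h4, ?_⟩
    rw [lin_neg']
    omega
  have h4 := parabolic_le_Tri hF J hℓ h1
  refine eq_one_of_UT_of_Tri' (ℓ := ℓ') (ℓ' := ℓ) ?_ h3 h4
  intro i j
  have e1 := hℓ i
  have e2 := hℓ j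
  have e3 := hℓ' i
  have e4 := hℓ' j
  rw [gr_neg] at e3 e4
  omega

/-- A rational representative of a `σ`-stable coset of a standard parabolic. -/
theorem rat_parabolic (J : Set ℕ) {g : GL D.Idx F} (hg : g ∈ D.group F)
    (h : g⁻¹ * glMap D f g ∈ D.parabolicSubgroup F J) :
    ∃ a ∈ D.group F, glMap D f a = a ∧ a⁻¹ * g ∈ D.parabolicSubgroup F J := by
  classical
  obtain ⟨b, hb, n, b', hb', rfl⟩ := exists_bruhat hF hg
  obtain ⟨u, hu, t, ht, rfl⟩ := hF.mem_borel_iff.1 hb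
  let n2 : ↥(D.monomialSubgroup F) := ⟨t, hF.c.diagonal_le_monomial ht⟩ * n
  obtain ⟨n', hn', e⟩ := exists_NJ_rep hF _ n2 rfl
  have hn'M : n' ∈ D.monomialSubgroup F := NJ_le_monomial hF Set.univ hn'
  let nn : ↥(D.monomialSubgroup F) := ⟨n', hn'M⟩
  obtain ⟨a, ha⟩ := exists_lin_transport hF (hF.rhoN_mem_Wk nn) (aJ J)
  obtain ⟨u1, hu1, u2, hu2, rfl⟩ := hF.exists_factor
    (fun r => D.IsPosRoot r ∧ R.lin D.rank a r < 0) (fun r => D.IsPosRoot r ∧ 0 ≤ R.lin D.rank a r)
    (fun r hr => by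
      by_cases h0 : R.lin D.rank a r < 0
      · exact Or.inl ⟨hr, h0⟩
      · exact Or.inr ⟨hr, not_lt.1 h0⟩) hu
  have hu1U : u1 ∈ D.posUnipotent F := by
    have h0 : rootClosure D F (fun r => D.IsPosRoot r ∧ R.lin D.rank a r < 0) ≤ D.posUnipotent F := by
      unfold rootClosure ChevalleyDatum.posUnipotent
      apply Subgroup.closure_mono
      rintro g ⟨s, t, hs, hg⟩
      exact ⟨s, t, hs.1, hg⟩
    exact h0 hu1
  have hρ : ∀ r, ∀ hr : r < D.nroots,
      R.lin D.rank (aJ J) ((hF.rhoN F nn⁻¹ ⟨r, hr⟩ : Fin D.nroots) : ℕ) = R.lin D.rank a r := by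
    intro r hr
    have h1 := ha (hF.rhoN F nn⁻¹ ⟨r, hr⟩)
    rw [← h1, map_inv]
    simp
  -- the positive part goes into the parabolic
  have hu2' : n'⁻¹ * u2 * n' ∈ D.parabolicSubgroup F J := by
    have h1 : nn⁻¹.1 * u2 * nn⁻¹.1⁻¹ ∈ rootClosure D F (fun s => s < D.nroots ∧ 0 ≤ R.lin D.rank (aJ J) s) := by
      refine conj_rootClosure hF nn⁻¹ ?_ hu2
      rintro r ⟨h2, h3⟩
      have hr := (hF.isPos_iff.1 h2).1
      refine ⟨hr, Fin.is_lt _, ?_⟩
      rw [hρ r hr]
      exact h3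
    have h2 : rootClosure D F (fun s => s < D.nroots ∧ 0 ≤ R.lin D.rank (aJ J) s) ≤
        D.parabolicSubgroup F J := by
      rw [rootClosure, Subgroup.closure_le]
      rintro g ⟨s, t, hs, hg⟩
      rw [hF.c.eq_xG hg]
      exact xG_mem_parabolic_of_lin hF J hs.1 hs.2 t
    have h3 := h2 h1
    simpa [nn] using h3
  set τ := n'⁻¹ * n2.1 with hτ
  have hn2 : t * n.1 = n' * τ := by
    rw [hτ]
    show t * n.1 = n' * (n'⁻¹ * (t * n.1))
    group
  set a0 := u1 * n' with ha0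
  have hgeq : u1 * u2 * t * n.1 * b' = a0 * ((n'⁻¹ * u2 * n') * τ * b') := by
    have e1 : u1 * u2 * t * n.1 * b' = u1 * u2 * (t * n.1) * b' := by group
    rw [e1, hn2, ha0]
    group
  set p := (n'⁻¹ * u2 * n') * τ * b' with hp
  have hpP : p ∈ D.parabolicSubgroup F J :=
    mul_mem (mul_mem hu2' (hF.borel_le_parabolic J (hF.c.diagonal_le_borel e)))
      (hF.borel_le_parabolic J hb')
  rw [hgeq] at h hg ⊢
  have hsgn : glMap D f n' = n' := NJ_sig hF f hn'
  have h3 : a0⁻¹ * glMap D f a0 ∈ D.parabolicSubgroup F J := by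
    have e1 : a0⁻¹ * glMap D f a0 = p * ((a0 * p)⁻¹ * glMap D f (a0 * p)) * (glMap D f p)⁻¹ := by
      rw [map_mul (glMap D f) a0 p]
      generalize glMap D f a0 = A
      generalize glMap D f p = B
      generalize p = P
      generalize a0 = Q
      group
    rw [e1]
    exact mul_mem (mul_mem hpP h) (inv_mem (sig_parabolic hF f J hpP))
  have h4 : a0⁻¹ * glMap D f a0 = nn⁻¹.1 * (u1⁻¹ * glMap D f u1) * nn⁻¹.1⁻¹ := by
    rw [ha0, map_mul, hsgn]
    show _ = n'⁻¹ * (u1⁻¹ * glMap D f u1) * n'⁻¹⁻¹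
    group
  have h5 : nn⁻¹.1 * (u1⁻¹ * glMap D f u1) * nn⁻¹.1⁻¹ ∈
      rootClosure D F (fun s => s < D.nroots ∧ R.lin D.rank (aJ J) s < 0) := by
    refine conj_rootClosure hF nn⁻¹ ?_
      (mul_mem (inv_mem hu1) (sig_rootClosure hF f hu1))
    rintro r ⟨h2, h3⟩
    have hr := (hF.isPos_iff.1 h2).1
    refine ⟨hr, Fin.is_lt _, ?_⟩
    rw [hρ r hr]
    exact h3
  rw [← h4] at h5
  have h6 := eq_one_of_parab hF J h3 h5
  refine ⟨a0, ?_, ?_, ?_⟩
  · exact mul_mem (hF.c.posUnipotent_le_group hu1U) (hF.c.monomial_le_group hn'M)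
  · have h7 : glMap D f a0 = a0 := by
      have := mul_left_cancel (a := a0⁻¹) (b := glMap D f a0) (c := a0) (by rw [h6]; simp)
      exact this
    exact h7
  · simpa using hpP

omit hF in
theorem parabolic_empty : D.parabolicSubgroup F ∅ = D.borelSubgroup F := by
  unfold ChevalleyDatum.parabolicSubgroup
  have h : Subgroup.closure {g : GL D.Idx F | ∃ j ∈ (∅ : Set ℕ), j < D.rank ∧
      (g : Matrix D.Idx D.Idx F) = D.nMat F (D.simple j) 1} = ⊥ := by
    rw [Subgroup.closure_eq_bot_iff]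
    rintro g ⟨j, hj, _⟩
    exact absurd hj (Set.notMem_empty j)
  rw [h, sup_bot_eq]

/-- If `g⁻¹ σ(g) ∈ U` then `g = m w` with `m` fixed and `w ∈ U`. -/
theorem rat_U {g : GL D.Idx F} (hg : g ∈ D.group F) (h : g⁻¹ * glMap D f g ∈ D.posUnipotent F) :
    ∃ m ∈ D.group F, glMap D f m = m ∧ m⁻¹ * g ∈ D.posUnipotent F := by
  have h1 : g⁻¹ * glMap D f g ∈ D.parabolicSubgroup F ∅ := by
    rw [parabolic_empty]
    exact U_le_B hF h
  obtain ⟨a, haG, hsa, hp⟩ := rat_parabolic hF f ∅ hg h1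
  rw [parabolic_empty] at hp
  obtain ⟨u, hu, t, ht, hut⟩ := hF.mem_borel_iff.1 hp
  have htN := hF.diagonal_le_normalizer_U (F := F) ht
  have e1 : g = a * (u * t) := by
    rw [← hut]
    group
  have hsgt := sig_diagonal hF f ht
  have h2 : t⁻¹ * glMap D f t ∈ D.posUnipotent F ⊓ D.diagonalSubgroup F := by
    refine ⟨?_, Subgroup.mul_mem _ (Subgroup.inv_mem _ ht) hsgt⟩
    have e2 : g⁻¹ * glMap D f g = (t⁻¹ * (u⁻¹ * glMap D f u) * t) * (t⁻¹ * glMap D f t) := by
      rw [e1, map_mul, map_mul, hsa]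
      group
    rw [e2] at h
    have h3 : t⁻¹ * (u⁻¹ * glMap D f u) * t ∈ D.posUnipotent F := by
      have h4 := (Subgroup.mem_set_normalizer_iff.1 (Subgroup.inv_mem _ htN) (u⁻¹ * glMap D f u)).1
        (mul_mem (inv_mem hu) (sig_U hF f hu))
      simpa using h4
    have h5 := mul_mem (inv_mem h3) h
    have e4 : (t⁻¹ * (u⁻¹ * glMap D f u) * t)⁻¹ * ((t⁻¹ * (u⁻¹ * glMap D f u) * t) * (t⁻¹ * glMap D f t)) =
        t⁻¹ * glMap D f t := by group
    rwa [e4] at h5
  rw [hF.U_inf_H, Subgroup.mem_bot] at h2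
  have hsgt' : glMap D f t = t := by
    have := mul_left_cancel (a := t⁻¹) (b := glMap D f t) (c := t) (by rw [h2]; simp)
    exact this
  refine ⟨a * t, mul_mem haG (hF.c.diagonal_le_group ht), ?_, ?_⟩
  · rw [map_mul, hsa, hsgt']
  · have e3 : (a * t)⁻¹ * g = t⁻¹ * u * t := by
      rw [e1]
      group
    rw [e3]
    have h4 := (Subgroup.mem_set_normalizer_iff.1 (Subgroup.inv_mem _ htN) u).1 hu
    simpa using h4

/-- An element of `G` commuting with the elements `x_r(1)`, `r` involving `k`, fixes these roots. -/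
theorem fix_of_comm {k : ℕ} (hk : k < D.rank) {b b' : GL D.Idx F} {n : ↥(D.monomialSubgroup F)}
    (hb : b ∈ D.borelSubgroup F) (hb' : b' ∈ D.borelSubgroup F)
    (hc : ∀ r < D.nroots, 0 < R.rcAt r k →
      (b * n.1 * b') * hF.c.xG r 1 = hF.c.xG r 1 * (b * n.1 * b')) :
    ∀ (m r : ℕ) (hr : r < D.nroots), r + m = D.nroots → 0 < R.rcAt r k →
      ((hF.rhoN F n ⟨r, hr⟩ : Fin D.nroots) : ℕ) = r := by
  classical
  intro m
  induction m using Nat.strong_induction_on with
  | _ m ih =>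
    intro r hr hm hrk
    have hpos : R.N ≤ r := hF.pos_of_rc_pos hr hk hrk
    obtain ⟨d, hd, z, hz, e1⟩ := conj_borel_form hF hpos hr hb' (c := 1) one_ne_zero
    obtain ⟨d', hd', z', hz', e2⟩ := conj_borel_form hF hpos hr (inv_mem hb) (c := 1) one_ne_zero
    -- the support of `z`
    let J : Set ℕ := {j | j ≠ k}
    have hkJ : k ∉ J := by simp [J]
    have hxR : hF.c.xG r 1 ∈ D.unipotentRadical F J := by
      rw [unipotentRadical_eq]
      exact hF.xG_mem_rootClosure (hF.QU_of_rc hr hk hkJ hrk) _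
    have hzR : z ∈ D.unipotentRadical F J := by
      have h1 := (Subgroup.mem_set_normalizer_iff.1
        (hF.parabolic_le_normalizer J (hF.borel_le_parabolic J hb')) _).1 hxR
      rw [e1] at h1
      have hxd : hF.c.xG r d ∈ D.unipotentRadical F J := by
        rw [unipotentRadical_eq]
        exact hF.xG_mem_rootClosure (hF.QU_of_rc hr hk hkJ hrk) _
      have h2 := mul_mem (inv_mem hxd) h1
      simpa using h2
    let a : ℕ → ℤ := fun j => if j = k then 1 else 0
    have hlin : ∀ s, R.lin D.rank a s = R.rcAt s k := by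
      intro s
      unfold RootTab.lin
      rw [Finset.sum_eq_single k]
      · simp [a]
      · intro j _ hj
        simp [a, hj]
      · intro h
        exact absurd (Finset.mem_range.2 hk) h
    obtain ⟨ℓ, dd, M, hdd, hℓ⟩ := Full.exists_lev R D a
    have hRle : D.unipotentRadical F J ≤ UT (F := F) ℓ 0 dd hdd := by
      rw [unipotentRadical_eq]
      refine rootClosure_le_UT hF hℓ ?_
      intro s hs
      obtain ⟨h1, _, k', h2, h3, h4⟩ := hF.QU_spec hs
      have : k' = k := by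
        by_contra hne
        exact h3 hne
      subst this
      refine ⟨h1, ?_⟩
      rw [hlin]
      omega
    obtain ⟨τ, rfl⟩ := hF.exists_ordW (D.nroots - (r + 1)) (r + 1) (by omega) (by omega) z hz
    have hsupp : ∀ s, r + 1 ≤ s → s < D.nroots → τ s ≠ 0 → 0 < R.rcAt s k := by
      intro s h1 h2 h3
      have h4 := support_UT hF hℓ (by omega) (hRle hzR) h1 h2 h3
      rw [hlin] at h4
      omega
    have hz2 : n.1 * hF.ordW (r + 1) τ * n.1⁻¹ ∈ Uk D F (r + 1) := by
      refine conj_rootClosure hF n (Q := fun s => r + 1 ≤ s ∧ s < D.nroots ∧ 0 < R.rcAt s k) ?_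
        (ordW_mem_closure hF (fun s h1 h2 h3 => ⟨h1, h2, hsupp s h1 h2 h3⟩))
      rintro s ⟨h1, h2, h3⟩
      refine ⟨h2, ?_⟩
      rw [ih (D.nroots - s) (by omega) s h2 (by omega) h3]
      exact ⟨h1, h2⟩
    -- the main identity
    have h1 : n.1 * (b' * hF.c.xG r 1 * b'⁻¹) * n.1⁻¹ = b⁻¹ * hF.c.xG r 1 * b⁻¹⁻¹ := by
      have h2 := hc r hr hrk
      have h3 : (b * n.1 * b') * hF.c.xG r 1 * (b * n.1 * b')⁻¹ = hF.c.xG r 1 := by
        rw [h2]
        group
      calc n.1 * (b' * hF.c.xG r 1 * b'⁻¹) * n.1⁻¹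
          = b⁻¹ * ((b * n.1 * b') * hF.c.xG r 1 * (b * n.1 * b')⁻¹) * b := by group
        _ = _ := by rw [h3]; group
    rw [e1, e2] at h1
    obtain ⟨u0, hu0⟩ := hF.rhoN_spec_apply n ⟨r, hr⟩
    have h3 : n.1 * (hF.c.xG r d * hF.ordW (r + 1) τ) * n.1⁻¹ =
        (n.1 * hF.c.xG r d * n.1⁻¹) * (n.1 * hF.ordW (r + 1) τ * n.1⁻¹) := by group
    rw [h3] at h1
    have h4 := hu0 d
    simp only at h4
    rw [h4] at h1
    set s := ((hF.rhoN F n ⟨r, hr⟩ : Fin D.nroots) : ℕ) with hs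
    have hsn : s < D.nroots := Fin.is_lt _
    set e := ((u0 : Fˣ) : F) * d with he
    have hene : e ≠ 0 := mul_ne_zero (Units.ne_zero _) hd
    set z2 := n.1 * hF.ordW (r + 1) τ * n.1⁻¹ with hz2def
    have h5 : hF.c.xG s e = hF.c.xG r d' * (z' * z2⁻¹) := by
      calc hF.c.xG s e = (hF.c.xG s e * z2) * z2⁻¹ := by group
        _ = _ := by rw [h1]; group
    have hz3 : z' * z2⁻¹ ∈ Uk D F (r + 1) := mul_mem hz' (inv_mem hz2)
    have hmemr : hF.c.xG r d' ∈ Uk D F r := hF.xG_mem_rootClosure ⟨le_rfl, hr⟩ _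
    have hmem : hF.c.xG s e ∈ Uk D F r := by
      rw [h5]
      exact mul_mem hmemr (hF.Uk_anti (by omega) hz3)
    have hsU : R.N ≤ s := by
      have h6 : hF.c.xG s e ∈ D.posUnipotent F := by
        rw [hF.U_eq_Uk]
        exact hF.Uk_anti hpos hmem
      exact (hF.xG_mem_U_iff hsn hene).1 h6
    rcases lt_trichotomy s r with hlt | heq | hgt
    · exact absurd (hF.xG_not_mem hsU hsn (hF.Uk_anti (by omega) hmem)) hene
    · exact heq
    · exfalso
      have h6 : hF.c.xG s e ∈ Uk D F (r + 1) := hF.xG_mem_rootClosure ⟨by omega, hsn⟩ _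
      have h7 : hF.c.xG r d' = hF.c.xG s e * (z' * z2⁻¹)⁻¹ := by
        rw [h5]
        group
      have h8 : hF.c.xG r d' ∈ Uk D F (r + 1) := by
        rw [h7]
        exact mul_mem h6 (inv_mem hz3)
      exact hd' (hF.xG_not_mem hpos hr h8)

/-- The table hypothesis on root strings used below. -/
def T2Tab (R : RootTab) (D : ChevalleyDatum) : Prop :=
  ∀ j < D.rank, ∀ k < D.rank, j ≠ k → ∃ r < D.nroots, ∃ r' < D.nroots, 0 < R.rcAt r k ∧ 0 < R.rcAt r' k ∧
      ∀ l < D.rank, R.rcAt r' l = R.rcAt r l + (if l = j then 1 else 0)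

/-- A permutation in the Weyl group fixing all roots involving `k` is trivial. -/
theorem rho_eq_one {k : ℕ} (hk : k < D.rank) (hT2 : T2Tab R D) {σ : Equiv.Perm (Fin D.nroots)}
    (hσ : σ ∈ hF.Wk Set.univ)
    (hfix : ∀ r : Fin D.nroots, 0 < R.rcAt r k → ((σ r : Fin D.nroots) : ℕ) = r) : σ = 1 := by
  classical
  have hsimple : ∀ j, ∀ hj : j < D.rank, ((σ ⟨D.simple j, hF.simple_lt hj⟩ : Fin D.nroots) : ℕ) = D.simple j := by
    intro j hj
    by_cases hjk : j = k
    · subst hjk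
      exact hfix ⟨D.simple j, hF.simple_lt hj⟩ (by
        show 0 < R.rcAt (D.simple j) j
        rw [hF.simple_rc hj hj, if_pos rfl]
        omega)
    · obtain ⟨r, hr, r', hr', h1, h2, h3⟩ := hT2 j hj k hk hjk
      set s : Fin D.nroots := ⟨D.simple j, hF.simple_lt hj⟩ with hs
      apply root_eq_of_rc hF (Fin.is_lt _) (hF.simple_lt hj)
      intro l hl
      -- the functional `δ_l`
      let a0 : ℕ → ℤ := fun i => if i = l then 1 else 0
      have hlin0 : ∀ t, R.lin D.rank a0 t = R.rcAt t l := by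
        intro t
        unfold RootTab.lin
        rw [Finset.sum_eq_single l]
        · simp [a0]
        · intro i _ hi
          simp [a0, hi]
        · intro h
          exact absurd (Finset.mem_range.2 hl) h
      obtain ⟨b0, hb0⟩ := exists_lin_transport hF (Subgroup.inv_mem _ hσ) a0
      have hb0' : ∀ t : Fin D.nroots, R.lin D.rank b0 t = R.lin D.rank a0 ((σ t : Fin D.nroots) : ℕ) := by
        intro t
        have := hb0 (σ t)
        simpa using this
      have h4 := hb0' ⟨r, hr⟩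
      have h5 := hb0' ⟨r', hr'⟩
      rw [hfix ⟨r, hr⟩ h1] at h4
      rw [hfix ⟨r', hr'⟩ h2] at h5
      have h6 := hb0' s
      have h7 : R.lin D.rank b0 r' = R.lin D.rank b0 r + b0 j := by
        unfold RootTab.lin
        have : ∀ i ∈ Finset.range D.rank, b0 i * R.rcAt r' i = b0 i * R.rcAt r i + (if i = j then b0 j else 0) := by
          intro i hi
          rw [h3 i (Finset.mem_range.1 hi)]
          by_cases hij : i = j
          · subst hij
            simp
            ring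
          · simp [hij]
        rw [Finset.sum_congr rfl this, Finset.sum_add_distrib, Finset.sum_ite_eq' (Finset.range D.rank) j (fun _ => b0 j)]
        simp [hj]
      have h8 : R.lin D.rank a0 r' = R.lin D.rank a0 r + a0 j := by
        unfold RootTab.lin
        have : ∀ i ∈ Finset.range D.rank, a0 i * R.rcAt r' i = a0 i * R.rcAt r i + (if i = j then a0 j else 0) := by
          intro i hi
          rw [h3 i (Finset.mem_range.1 hi)]
          by_cases hij : i = j
          · subst hij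
            simp
            ring
          · simp [hij]
        rw [Finset.sum_congr rfl this, Finset.sum_add_distrib, Finset.sum_ite_eq' (Finset.range D.rank) j (fun _ => a0 j)]
        simp [hj]
      have h9 : b0 j = a0 j := by
        have e1 : R.lin D.rank b0 r' = R.lin D.rank a0 r' := h5
        have e2 : R.lin D.rank b0 r = R.lin D.rank a0 r := h4
        omega
      have h10 : R.lin D.rank b0 s = b0 j := by
        unfold RootTab.lin
        rw [Finset.sum_eq_single j]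
        · show b0 j * R.rcAt (D.simple j) j = _
          rw [hF.simple_rc hj hj, if_pos rfl, mul_one]
        · intro i hi hij
          show b0 i * R.rcAt (D.simple j) i = _
          rw [hF.simple_rc hj (Finset.mem_range.1 hi), if_neg (fun e => hij e.symm), mul_zero]
        · intro h
          exact absurd (Finset.mem_range.2 hj) h
      rw [← hlin0, ← h6, h10, h9]
      show a0 j = R.rcAt (D.simple j) l
      rw [hF.simple_rc hj hl]
  apply hF.eq_one_of_invF hσ
  by_contra hne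
  obtain ⟨i, hi, -, hneg⟩ := hF.exists_simple_neg hσ hne
  rw [hsimple i hi] at hneg
  have := hF.simple_ge hi
  omega

/-- Lemma C: an element of `G` commuting with the `x_r(1)`, `r` involving `k`, lies in `U`. -/
theorem cent_le_U {k : ℕ} (hk : k < D.rank) (hT2 : T2Tab R D) {g : GL D.Idx F} (hg : g ∈ D.group F)
    (hc : ∀ r < D.nroots, 0 < R.rcAt r k → g * hF.c.xG r 1 = hF.c.xG r 1 * g) :
    g ∈ D.posUnipotent F := by
  obtain ⟨b, hb, n, b', hb', rfl⟩ := exists_bruhat hF hg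
  have h1 := fix_of_comm hF hk hb hb' hc
  have h2 : hF.rhoN F n = 1 := rho_eq_one hF hk hT2 (hF.rhoN_mem_Wk n) (fun r hr =>
    h1 (D.nroots - r) r r.2 (by have := r.2; omega) hr)
  have h3 := hF.mem_diagonal_of_rhoN_eq_one h2
  have h4 : b * n.1 * b' ∈ D.borelSubgroup F := mul_mem (mul_mem hb (hF.c.diagonal_le_borel h3)) hb'
  obtain ⟨u, hu, t, ht, hut⟩ := hF.mem_borel_iff.1 h4
  obtain ⟨c, rfl⟩ := hF.mem_diagonal_iff.1 ht
  rw [hut] at hc ⊢
  have hχ : ∀ r < D.nroots, 0 < R.rcAt r k → chiT D c r = 1 := by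
    intro r hr hrk
    apply chi_eq_one hF hu c hr (hF.pos_of_rc_pos hr hk hrk)
    rw [hc r hr hrk]
    group
  have h5 := tor_eq_one hF c hk (fun i hi l hl => by
    rw [hF.simple_rc hi hl]
    simp [eq_comm]) (fun j hj hjk => hT2 j hj k hk hjk) hχ
  rw [h5, mul_one]
  exact hu

section Over

variable (H : Subgroup (GL D.Idx F)) (hHG : H ≤ D.group F)
  (hM : ∀ g ∈ D.group F, glMap D f g = g → g ∈ H)
  (hNS : ∀ u ∈ H, u ∈ D.posUnipotent F → glMap D f u = u)

include hHG hM hNS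

/-- Lemma A: `H ∩ P_J` is fixed by `σ` for `J` proper. -/
theorem fixed_of_parabolic (hT2 : T2Tab R D) {J : Set ℕ} {k : ℕ} (hk : k < D.rank) (hkJ : k ∉ J)
    {y : GL D.Idx F} (hyH : y ∈ H) (hyP : y ∈ D.parabolicSubgroup F J) : glMap D f y = y := by
  have hyG := hHG hyH
  have hone : ∀ r < D.nroots, ∀ c : F, f c = c → hF.c.xG r c ∈ H := fun r hr c hc =>
    hM _ (hF.c.xG_mem_group hr c) (by rw [sig_xG hF, hc])
  have h1 : y⁻¹ * glMap D f y ∈ D.posUnipotent F := by
    apply cent_le_U hF hk hT2 (mul_mem (inv_mem hyG) (sig_group f hyG))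
    intro r hr hrk
    have hxR : hF.c.xG r 1 ∈ D.unipotentRadical F J := by
      rw [unipotentRadical_eq]
      exact hF.xG_mem_rootClosure (hF.QU_of_rc hr hk hkJ hrk) _
    have h2 := (Subgroup.mem_set_normalizer_iff.1 (hF.parabolic_le_normalizer J hyP) _).1 hxR
    have h3 : y * hF.c.xG r 1 * y⁻¹ ∈ H := mul_mem (mul_mem hyH (hone r hr 1 (map_one f))) (inv_mem hyH)
    have h4 := hNS _ h3 (hF.radical_le_U J h2)
    rw [map_mul, map_mul, map_inv, sig_xG hF, map_one] at h4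
    -- `σ(y) x σ(y)⁻¹ = y x y⁻¹`
    have h5 : (y⁻¹ * glMap D f y) * hF.c.xG r 1 * (y⁻¹ * glMap D f y)⁻¹ = hF.c.xG r 1 := by
      calc (y⁻¹ * glMap D f y) * hF.c.xG r 1 * (y⁻¹ * glMap D f y)⁻¹
          = y⁻¹ * (glMap D f y * hF.c.xG r 1 * (glMap D f y)⁻¹) * y := by group
        _ = _ := by rw [h4]; group
    calc (y⁻¹ * glMap D f y) * hF.c.xG r 1
        = ((y⁻¹ * glMap D f y) * hF.c.xG r 1 * (y⁻¹ * glMap D f y)⁻¹) * (y⁻¹ * glMap D f y) := by group
      _ = _ := by rw [h5]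
  obtain ⟨m, hmG, hsm, hw⟩ := rat_U hF f hyG h1
  have hmH := hM m hmG hsm
  have h6 := hNS _ (mul_mem (inv_mem hmH) hyH) hw
  rw [map_mul, map_inv, hsm] at h6
  exact mul_left_cancel h6

/-- The rational Borel-Tits property. -/
theorem normalizer_fixed [Fintype F] {p : ℕ} [Fact p.Prime] [CharP F p] (hT2 : T2Tab R D)
    (U : Subgroup (GL D.Idx F)) (hUG : U ≤ D.group F) (hUfix : ∀ u ∈ U, glMap D f u = u)
    (hU : IsPGroup p ↥U) (hne : U ≠ ⊥) {y : GL D.Idx F} (hyH : y ∈ H)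
    (hyN : y ∈ Subgroup.normalizer (U : Set (GL D.Idx F))) : glMap D f y = y := by
  open Cfsg.Agent.Lib.BorelTits50 in
  obtain ⟨g₀, hg₀, hg₀U⟩ := exists_conj_U hF U hUG hU
  have hx0 : (fun _ => 1) ∈ XX R D U := ⟨g₀, hg₀, fun u hu => U_le_Fp_one hF (hg₀U u hu)⟩
  obtain ⟨x, ⟨g, hg⟩, hmin⟩ := exists_min hF U ⟨_, hx0⟩
  obtain ⟨n, hdom⟩ := exists_dominant hF (F := F) x
  set x' := actV hF (hF.rhoN F n) x with hx'
  have hA : Adm R D U (g * n.1⁻¹) x' := by
    refine ⟨mul_mem hg.1 (inv_mem (hF.c.monomial_le_group n.2)), fun u hu => ?_⟩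
    have h1 := conj_mem_Fp hF n x (hg.2 u hu)
    have e : (g * n.1⁻¹)⁻¹ * u * (g * n.1⁻¹) = n.1 * (g⁻¹ * u * g) * n.1⁻¹ := by group
    rw [e]
    exact h1
  have hm : ∀ x'' ∈ XX R D U, Qn R D x' ≤ Qn R D x'' := by
    rw [hx', Qn_actV hF (hF.rhoN_mem_Wk n)]
    exact hmin
  set g' := g * n.1⁻¹ with hg'
  -- properness
  have hprop : ∃ k, k < D.rank ∧ k ∉ Jx x' := by
    by_contra hcon
    push Not at hcon
    apply hne
    rw [eq_bot_iff]
    intro u hu
    have h0 : Fp R D F x' = ⊥ := by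
      unfold Fp Full.rootClosure
      rw [Subgroup.closure_eq_bot_iff]
      rintro v ⟨s, t, hs, _⟩
      exfalso
      have h2 : lin R D x' s = 0 := by
        unfold lin
        apply Finset.sum_eq_zero
        intro j _
        obtain ⟨_, h3⟩ := hcon j j.2
        have h4 : x' j = 0 := h3
        rw [h4, zero_mul]
      have := hs.2
      rw [h2] at this
      linarith
    have h1 := hA.2 u hu
    rw [h0, Subgroup.mem_bot] at h1
    rw [Subgroup.mem_bot]
    have e : u = g' * (g'⁻¹ * u * g') * g'⁻¹ := by group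
    rw [e, h1]
    group
  obtain ⟨k, hk, hkJ⟩ := hprop
  -- `σ(g')` is admissible too
  have hA2 : Adm R D U (glMap D f g') x' := by
    refine ⟨sig_group f hA.1, fun u hu => ?_⟩
    have h1 := hA.2 u hu
    have h2 := sig_rootClosure hF f h1
    rw [map_mul, map_mul, map_inv, hUfix u hu] at h2
    exact h2
  have h3 := unique_min hF U hA hA2 hdom hdom hm hm
  obtain ⟨a, haG, hsa, hap⟩ := rat_parabolic hF f _ hA.1 h3
  have haH := hM a haG hsa
  have hA' : Adm R D U (y * g') x' := by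
    refine ⟨mul_mem (hHG hyH) hA.1, fun u hu => ?_⟩
    have h1 : y⁻¹ ∈ Subgroup.normalizer (U : Set (GL D.Idx F)) := inv_mem hyN
    have h2 := (Subgroup.mem_set_normalizer_iff.1 h1 u).1 hu
    have h3 := hA.2 _ h2
    have e : (y * g')⁻¹ * u * (y * g') = g'⁻¹ * (y⁻¹ * u * y⁻¹⁻¹) * g' := by group
    rw [e]
    exact h3
  have h4 := unique_min hF U hA hA' hdom hdom hm hm
  have h5 : a⁻¹ * y * a ∈ D.parabolicSubgroup F (Jx x') := by
    have e : a⁻¹ * y * a = (a⁻¹ * g') * (g'⁻¹ * (y * g')) * (a⁻¹ * g')⁻¹ := by group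
    rw [e]
    exact mul_mem (mul_mem hap h4) (inv_mem hap)
  have h6 : a⁻¹ * y * a ∈ H := mul_mem (mul_mem (inv_mem haH) hyH) haH
  have h7 := fixed_of_parabolic hF f H hHG hM hNS hT2 hk hkJ h6 h5
  rw [map_mul, map_mul, map_inv, hsa] at h7
  have h8 : glMap D f y * a = y * a := mul_left_cancel (a := a⁻¹) (by
    rw [← mul_assoc, ← mul_assoc]
    exact h7)
  exact mul_right_cancel h8

end Over

end Cfsg.Agent.Lib.ChevSub
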