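import Mathlib
import Cfsg.Agent.Lib.ChevSub.Rat

/-!
# Leading coordinates of elements commuting with the `x_β(1)`

If `v = x_k(d) z`, `z ∈ U_{k+1}`, commutes with `x_β(1)`, `k + β = m`, then an integer determined by
the structure constants annihilates `d`.
-/

set_option autoImplicit false
set_option linter.unusedSectionVars false
set_option linter.unusedVariables false
set_option linter.unnecessarySimpa false

namespace Cfsg.Agent.Lib.ChevSub

open Cfsg Cfsg.Lie Matrix Cfsg.Agent.Lib.Chev Cfsg.Agent.Lib.Chev.Full Cfsg.Agent.Lib.Chev.Tri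
open Cfsg.Agent.Lib.ChevTransfer Cfsg.Agent.Lib.ChevAut.SubField
open Cfsg.Agent.Lib.ChevAut.ParabFit Cfsg.Agent.Lib.ChevInv Cfsg.Agent.Lib.ChevInv.CentG

variable {T : Tabs} {X : Extra} {R : RootTab} {D : ChevalleyDatum} (hF : Full T X R D)
variable {F : Type*} [Field F]

/-- The conditions on a row of the table. -/
def RowOK (R : RootTab) (D : ChevalleyDatum) (k β m i : ℕ) (N' M' : ℤ) : Prop :=
  R.N ≤ k ∧ k < D.nroots ∧ R.N ≤ β ∧ β < D.nroots ∧ m < D.nroots ∧ i < D.rank ∧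
    (∀ j < D.rank, R.rcAt m j = R.rcAt k j + R.rcAt β j) ∧
    D.chainCoeff β (D.neg m) (D.neg k) = [(1, N')] ∧ D.chainCoeff k (D.neg m) (D.neg β) = [(1, M')]

/-- The integer of a row. -/
def rowZ (D : ChevalleyDatum) (k β i : ℕ) (N' M' : ℤ) : ℤ :=
  (D.coroot.getD k #[]).getD i 0 * N' - (D.coroot.getD β #[]).getD i 0 * M'

include hF

theorem x_inl_row {k : ℕ} (hk : k < D.nroots) (d : F) (i : Fin D.rank) (c : D.Idx)
    (h1 : c ≠ Sum.inl i) (h2 : c ≠ Sum.inr ⟨D.neg k, hF.neg_lt hk⟩) :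
    D.x F k d (Sum.inl i) c = 0 := by
  have hx : D.x F k d = D.xMat F ⟨k, hk⟩ d := by simp [ChevalleyDatum.x, hk]
  rw [hx]
  rcases c with i' | s
  · have hne : i ≠ i' := fun e => h1 (by rw [e])
    simp [ChevalleyDatum.xMat, hne]
  · have hne : (s : ℕ) ≠ D.neg k := fun e => h2 (by
      congr 1
      exact Fin.ext e)
    have hneg : D.neg k = D.negIdx.getD k 0 := rfl
    rw [hneg] at hne
    show (if s = (⟨k, hk⟩ : Fin D.nroots) then (0 : F) else if (s : ℕ) = D.negIdx.getD k 0 then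
      (((D.coroot.getD k #[]).getD i 0 : ℤ) : F) * d else 0) = 0
    rw [if_neg hne]
    split_ifs <;> rfl

theorem x_root_entry {s : ℕ} (hs : s < D.nroots) (t : F) {u c : Fin D.nroots} (h1 : (c : ℕ) ≠ s)
    (h2 : (c : ℕ) ≠ D.neg s) (h3 : u ≠ c) :
    D.x F s t (Sum.inr u) (Sum.inr c) =
      ((D.chainCoeff s c u).map fun km => ((km.2 : ℤ) : F) * t ^ km.1).sum := by
  have hx : D.x F s t = D.xMat F ⟨s, hs⟩ t := by simp [ChevalleyDatum.x, hs]
  rw [hx]
  have hne : c ≠ ⟨s, hs⟩ := fun e => h1 (by rw [e])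
  have hneg : D.neg s = D.negIdx.getD s 0 := rfl
  rw [hneg] at h2
  show (if c = (⟨s, hs⟩ : Fin D.nroots) then (if u = (⟨s, hs⟩ : Fin D.nroots) then (1 : F) else 0)
    else if (c : ℕ) = D.negIdx.getD s 0 then (if u = c then (1 : F) else if u = (⟨s, hs⟩ : Fin D.nroots) then -(t ^ 2) else 0)
    else (if u = c then 1 else 0) + ((D.chainCoeff s c u).map fun km => ((km.2 : ℤ) : F) * t ^ km.1).sum) = _
  rw [if_neg hne, if_neg h2, if_neg h3, zero_add]

theorem lead_row {k β m i : ℕ} {N' M' : ℤ} (hrow : RowOK R D k β m i N' M') {d : F}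
    {z : GL D.Idx F} (hz : z ∈ Uk D F (k + 1))
    (hc : (hF.c.xG k d * z) * hF.c.xG β 1 = hF.c.xG β 1 * (hF.c.xG k d * z)) :
    ((rowZ D k β i N' M' : ℤ) : F) * d = 0 := by
  classical
  obtain ⟨hk, hkn, hb, hbn, hmn, hi, hadd, hN, hM⟩ := hrow
  set φ := hF.phiW with hφ
  obtain ⟨ℓ, dd, M0, hdd, hℓ⟩ := Full.exists_lev R D φ
  have hφk : 0 < R.lin D.rank φ k := hF.phi_pos hkn hk
  have hφb : 0 < R.lin D.rank φ β := hF.phi_pos hbn hb
  have hφm : R.lin D.rank φ m = R.lin D.rank φ k + R.lin D.rank φ β := by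
    unfold RootTab.lin
    rw [← Finset.sum_add_distrib]
    apply Finset.sum_congr rfl
    intro j hj
    rw [hadd j (Finset.mem_range.1 hj)]
    ring
  obtain ⟨P, hP⟩ : ∃ P : ℕ, (P : ℤ) = R.lin D.rank φ k := ⟨(R.lin D.rank φ k).toNat, by omega⟩
  obtain ⟨Q, hQ⟩ : ∃ Q : ℕ, (Q : ℤ) = R.lin D.rank φ β := ⟨(R.lin D.rank φ β).toNat, by omega⟩
  set A0 : Matrix D.Idx D.Idx F := D.x F k d - 1 with hA0
  set Z : Matrix D.Idx D.Idx F := (z : Matrix D.Idx D.Idx F) - 1 with hZ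
  set A1 : Matrix D.Idx D.Idx F := D.x F k d * Z with hA1
  set B : Matrix D.Idx D.Idx F := D.x F β 1 - 1 with hB
  have hZJ : Z ∈ J ℓ (P + 1) := by
    have h1 : z ∈ UT (F := F) ℓ P dd hdd := by
      refine closure_le_UT hF hdd hℓ ?_ hz
      rintro s ⟨h2, h3⟩
      refine ⟨h3, ?_⟩
      have : R.lin D.rank φ k < R.lin D.rank φ s := hF.phi_strict (r := k) (s := s) (by omega) h3
      push_cast
      omega
    exact mem_UT.1 h1
  have hA1J : A1 ∈ J ℓ (0 + (P + 1)) := J_mul (x_mem_J0 hF hℓ hkn hφk d) hZJ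
  have hBJ : B ∈ J ℓ Q := x_sub_mem hF hℓ hbn hφb 1 (by omega)
  have hmat : ((hF.c.xG k d * z * hF.c.xG β 1 : GL D.Idx F) : Matrix D.Idx D.Idx F) =
      ((hF.c.xG β 1 * (hF.c.xG k d * z) : GL D.Idx F) : Matrix D.Idx D.Idx F) := by rw [hc]
  simp only [Units.val_mul, Checks.coe_xG] at hmat
  have e1 : D.x F k d * (z : Matrix D.Idx D.Idx F) = 1 + A0 + A1 := by
    rw [hA1, hZ, hA0, mul_sub, mul_one]
    abel
  have e2 : D.x F β 1 = 1 + B := by
    rw [hB]
    abel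
  rw [e1, e2] at hmat
  have e3 : A0 * B - B * A0 = B * A1 - A1 * B := by
    have h5 : (1 + A0 + A1) * (1 + B) - (1 + B) * (1 + A0 + A1) = (A0 * B - B * A0) - (B * A1 - A1 * B) := by
      noncomm_ring
    have h6 : (A0 * B - B * A0) - (B * A1 - A1 * B) = 0 := by
      rw [← h5, hmat, sub_self]
    exact sub_eq_zero.1 h6
  have hJ : A0 * B - B * A0 ∈ J ℓ (P + Q + 1) := by
    rw [e3]
    have h5 : B * A1 ∈ J ℓ (Q + (0 + (P + 1))) := J_mul hBJ hA1J
    have h6 : A1 * B ∈ J ℓ (0 + (P + 1) + Q) := J_mul hA1J hBJ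
    refine J_sub (J_anti (by omega) h5) (J_anti (by omega) h6)
  let ii : Fin D.rank := ⟨i, hi⟩
  let nm : Fin D.nroots := ⟨D.neg m, hF.neg_lt hmn⟩
  let nk : Fin D.nroots := ⟨D.neg k, hF.neg_lt hkn⟩
  let nb : Fin D.nroots := ⟨D.neg β, hF.neg_lt hbn⟩
  have hent := hJ (Sum.inl ii) (Sum.inr nm) (by
    have := lev_neg' hF hℓ hmn ii
    have h7 : (ℓ (Sum.inl ii) : ℤ) = ℓ (Sum.inr nm) + R.lin D.rank φ m := this
    omega)
  rw [Matrix.sub_apply, Matrix.mul_apply, Matrix.mul_apply] at hent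
  have hmpos : R.N ≤ m := by
    by_contra hcon
    have h9 : R.lin D.rank φ m < 0 := hF.phi_neg (by omega)
    omega
  have hmk : m ≠ k := by
    rintro rfl
    omega
  have hmb : m ≠ β := by
    rintro rfl
    omega
  have hnmk : nm ≠ nk := by
    intro e
    apply hmk
    have h8 : D.neg m = D.neg k := congrArg Fin.val e
    rw [← hF.neg_neg hmn, h8, hF.neg_neg hkn]
  have hnmb : nm ≠ nb := by
    intro e
    apply hmb
    have h8 : D.neg m = D.neg β := congrArg Fin.val e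
    rw [← hF.neg_neg hmn, h8, hF.neg_neg hbn]
  have hrowA : ∀ {s : ℕ} (hs : s < D.nroots) (t : F) (c : D.Idx),
      c ≠ Sum.inr ⟨D.neg s, hF.neg_lt hs⟩ → (D.x F s t - 1) (Sum.inl ii) c = 0 := by
    intro s hs t c hc
    rw [Matrix.sub_apply]
    by_cases h1 : c = Sum.inl ii
    · subst h1
      rw [hF.x_entry_self hs, Matrix.one_apply_eq, sub_self]
    · rw [x_inl_row hF hs t ii c h1 hc, Matrix.one_apply_ne (fun e => h1 e.symm), sub_zero]
  have hs1 : ∑ c, A0 (Sum.inl ii) c * B c (Sum.inr nm) = A0 (Sum.inl ii) (Sum.inr nk) * B (Sum.inr nk) (Sum.inr nm) := by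
    apply Finset.sum_eq_single
    · intro c _ hc
      rw [hA0, hrowA hkn d c hc, zero_mul]
    · simp
  have hs2 : ∑ c, B (Sum.inl ii) c * A0 c (Sum.inr nm) = B (Sum.inl ii) (Sum.inr nb) * A0 (Sum.inr nb) (Sum.inr nm) := by
    apply Finset.sum_eq_single
    · intro c _ hc
      rw [hB, hrowA hbn 1 c hc, zero_mul]
    · simp
  rw [hs1, hs2] at hent
  have hinl : ∀ {s : ℕ} (hs : s < D.nroots) (t : F),
      (D.x F s t - 1) (Sum.inl ii) (Sum.inr ⟨D.neg s, hF.neg_lt hs⟩) =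
        (((D.coroot.getD s #[]).getD i 0 : ℤ) : F) * t := by
    intro s hs t
    rw [Matrix.sub_apply, hF.x_entry_coroot hs t ii, Matrix.one_apply_ne (by simp), sub_zero]
  have hnegN : ∀ {s : ℕ}, s < D.nroots → R.N ≤ s → D.neg s < R.N := fun h1 h2 => hF.neg_lt_N h1 h2
  have hB2 : B (Sum.inr nk) (Sum.inr nm) = (N' : F) := by
    rw [hB, Matrix.sub_apply, Matrix.one_apply_ne (by
      intro e
      exact hnmk (Sum.inr.inj e).symm), sub_zero]
    rw [x_root_entry hF hbn 1 (u := nk) (c := nm) ?_ ?_ ?_]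
    · show ((D.chainCoeff β (D.neg m) (D.neg k)).map _).sum = _
      rw [hN]
      simp
    · show D.neg m ≠ β
      have := hF.neg_lt_N hmn hmpos
      omega
    · intro e
      exact hnmb (Fin.ext e)
    · exact fun e => hnmk e.symm
  have hA2 : A0 (Sum.inr nb) (Sum.inr nm) = (M' : F) * d := by
    rw [hA0, Matrix.sub_apply, Matrix.one_apply_ne (by
      intro e
      exact hnmb (Sum.inr.inj e).symm), sub_zero]
    rw [x_root_entry hF hkn d (u := nb) (c := nm) ?_ ?_ ?_]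
    · show ((D.chainCoeff k (D.neg m) (D.neg β)).map _).sum = _
      rw [hM]
      simp
    · show D.neg m ≠ k
      have := hF.neg_lt_N hmn hmpos
      omega
    · intro e
      exact hnmk (Fin.ext e)
    · exact fun e => hnmb e.symm
  rw [hB2, hA2, hA0, hB, hinl hkn d, hinl hbn 1] at hent
  unfold rowZ
  push_cast
  linear_combination hent

end Cfsg.Agent.Lib.ChevSub
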