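import Mathlib
import Cfsg.Agent.Lib.ChevSub.Lead

/-!
# Extracting root elements from an irrational element of `H ∩ U`

If `H` contains the fixed points of `σ` and an element of `U` not fixed by `σ`, then `H` contains a
root element `x_top(s)`, `σ s ≠ s`, or, in the special characteristic, `x_δ(s) x_top(c)`, `σ s ≠ s`.
-/

set_option autoImplicit false
set_option linter.unusedSectionVars false
set_option linter.unusedVariables false
set_option linter.unnecessarySimpa false

namespace Cfsg.Agent.Lib.ChevSub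

open Cfsg Cfsg.Lie Matrix Cfsg.Agent.Lib.Chev Cfsg.Agent.Lib.Chev.Full Cfsg.Agent.Lib.Chev.Tri
open Cfsg.Agent.Lib.ChevTransfer Cfsg.Agent.Lib.ChevAut.SubField
open Cfsg.Agent.Lib.ChevAut.ParabFit Cfsg.Agent.Lib.ChevInv Cfsg.Agent.Lib.ChevInv.CentG

variable {T : Tabs} {X : Extra} {R : RootTab} {D : ChevalleyDatum} (hF : Full T X R D)
variable {F : Type*} [Field F] (f : F ≃+* F)

include hF

omit hF in
theorem Uk_top_eq_bot {n : ℕ} (hn : D.nroots ≤ n) : Uk D F n = ⊥ := by
  unfold Uk rootClosure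
  rw [Subgroup.closure_eq_bot_iff]
  rintro x ⟨s, t, hs, _⟩
  omega

/-- Commutators of `U` with `U_k` lie in `U_{k+1}`. -/
theorem comm_mem_Uk {k : ℕ} (hk : R.N ≤ k) (hkn : k < D.nroots) {b v : GL D.Idx F}
    (hb : b ∈ D.posUnipotent F) (hv : v ∈ Uk D F k) : b * v * b⁻¹ * v⁻¹ ∈ Uk D F (k + 1) := by
  obtain ⟨τ, rfl⟩ := hF.exists_ordW (D.nroots - k) k (by omega) hk v hv
  rw [hF.ordW_succ hkn]
  set a := hF.c.xG k (τ k) with ha
  set z := hF.ordW (k + 1) τ with hz
  have hzm : z ∈ Uk D F (k + 1) := hF.ordW_mem _ _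
  have hk1 : R.N ≤ k + 1 := by omega
  have h1 := hF.comm_xG_mem_Uk hk hkn hb (τ k)
  have hN := hF.U_le_normalizer_Uk (F := F) hk1
  have haU : a ∈ D.posUnipotent F := hF.xG_mem_U hkn hk _
  have h2 : b * z * b⁻¹ ∈ Uk D F (k + 1) := (Subgroup.mem_set_normalizer_iff.1 (hN hb) z).1 hzm
  have h3 : a * ((b * z * b⁻¹) * z⁻¹) * a⁻¹ ∈ Uk D F (k + 1) :=
    (Subgroup.mem_set_normalizer_iff.1 (hN haU) _).1 (mul_mem h2 (inv_mem hzm))
  have e : b * (a * z) * b⁻¹ * (a * z)⁻¹ =
      (b * a * b⁻¹ * a⁻¹) * (a * ((b * z * b⁻¹) * z⁻¹) * a⁻¹) := by group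
  rw [e]
  exact mul_mem h1 h3

/-- A root element central in `U` commutes with the ordered products. -/
theorem comm_ordW {c : ℕ} (hcent : ∀ r < D.nroots, R.N ≤ r → ∀ t t' : F,
    hF.c.xG c t * hF.c.xG r t' = hF.c.xG r t' * hF.c.xG c t) (t : F) (τ : ℕ → F) :
    ∀ (m k : ℕ), k + m = D.nroots → R.N ≤ k → hF.c.xG c t * hF.ordW k τ = hF.ordW k τ * hF.c.xG c t := by
  intro m
  induction m with
  | zero =>
    intro k hk _
    rw [hF.ordW_of_ge (by omega)]
    simp
  | succ m ih =>
    intro k hk hkN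
    have hkn : k < D.nroots := by omega
    rw [hF.ordW_succ hkn, ← mul_assoc, hcent k hkn hkN, mul_assoc, ih (k + 1) (by omega) (by omega), mul_assoc]

/-- Multiplying an ordered product by a central root element on the right. -/
theorem ordW_mul_central {c : ℕ} (hc : c < D.nroots) (hcN : R.N ≤ c)
    (hcent : ∀ r < D.nroots, R.N ≤ r → ∀ t t' : F,
      hF.c.xG c t * hF.c.xG r t' = hF.c.xG r t' * hF.c.xG c t) (d : F) (τ : ℕ → F) :
    ∀ (m k : ℕ), k + m = c → R.N ≤ k → hF.ordW k τ * hF.c.xG c d =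
      hF.ordW k (Function.update τ c (τ c + d)) := by
  intro m
  induction m with
  | zero =>
    intro k hk hkN
    have hkc : k = c := by omega
    subst hkc
    rw [hF.ordW_succ hc, hF.ordW_succ hc]
    simp only [Function.update_self]
    have h1 : hF.ordW (k + 1) (Function.update τ k (τ k + d)) = hF.ordW (k + 1) τ := by
      apply hF.ordW_congr
      intro r h2 _
      rw [Function.update_of_ne (by omega)]
    rw [h1, mul_assoc, ← comm_ordW hF hcent d τ (D.nroots - (k + 1)) (k + 1) (by omega) (by omega),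
      ← mul_assoc, hF.c.xG_add]
  | succ m ih =>
    intro k hk hkN
    have hkn : k < D.nroots := by omega
    rw [hF.ordW_succ hkn, mul_assoc, ih (k + 1) (by omega) (by omega), hF.ordW_succ hkn,
      Function.update_of_ne (by omega)]

section Over

variable (H : Subgroup (GL D.Idx F)) (hHG : H ≤ D.group F)
  (hM : ∀ g ∈ D.group F, glMap D f g = g → g ∈ H)

include hHG hM

/-- An irrational element of `H ∩ U` whose defect is as deep as possible. -/
theorem exists_deep (hStar : ∃ u ∈ H, u ∈ D.posUnipotent F ∧ glMap D f u ≠ u) :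
    ∃ u ∈ H, u ∈ D.posUnipotent F ∧ ∃ (k : ℕ) (d : F) (z : GL D.Idx F), R.N ≤ k ∧ k < D.nroots ∧ d ≠ 0 ∧
      z ∈ Uk D F (k + 1) ∧ u⁻¹ * glMap D f u = hF.c.xG k d * z ∧
      ∀ β, R.N ≤ β → β < D.nroots →
        (hF.c.xG k d * z) * hF.c.xG β 1 = hF.c.xG β 1 * (hF.c.xG k d * z) := by
  classical
  let P : ℕ → Prop := fun k => ∃ u ∈ H, u ∈ D.posUnipotent F ∧ glMap D f u ≠ u ∧ u⁻¹ * glMap D f u ∈ Uk D F k
  have hNn : R.N ≤ D.nroots := by
    have := hF.two
    omega
  have hP0 : P R.N := by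
    obtain ⟨u, h1, h2, h3⟩ := hStar
    refine ⟨u, h1, h2, h3, ?_⟩
    rw [← hF.U_eq_Uk]
    exact mul_mem (inv_mem h2) (sig_U hF f h2)
  have hPn : ¬ P D.nroots := by
    rintro ⟨u, _, _, h3, h4⟩
    rw [Uk_top_eq_bot (le_refl _), Subgroup.mem_bot] at h4
    apply h3
    exact (mul_left_cancel (a := u⁻¹) (by rw [h4]; simp))
  obtain ⟨k, hk, hkn, hPk, hnP⟩ : ∃ k, R.N ≤ k ∧ k < D.nroots ∧ P k ∧ ¬ P (k + 1) := by
    by_contra hcon
    push Not at hcon
    have h1 : ∀ j, R.N + j ≤ D.nroots → P (R.N + j) := by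
      intro j
      induction j with
      | zero => exact fun _ => hP0
      | succ j ih =>
        intro hj
        exact hcon (R.N + j) (by omega) (by omega) (ih (by omega))
    apply hPn
    have h2 := h1 (D.nroots - R.N) (by omega)
    rwa [show R.N + (D.nroots - R.N) = D.nroots by omega] at h2
  obtain ⟨u, huH, huU, hune, hv⟩ := hPk
  have huG := hHG huH
  refine ⟨u, huH, huU, ?_⟩
  obtain ⟨τ, hτ⟩ := hF.exists_ordW (D.nroots - k) k (by omega) hk _ hv
  rw [hF.ordW_succ hkn] at hτ
  refine ⟨k, τ k, hF.ordW (k + 1) τ, hk, hkn, ?_, hF.ordW_mem _ _, hτ, ?_⟩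
  · intro h0
    apply hnP
    refine ⟨u, huH, huU, hune, ?_⟩
    rw [hτ, h0, hF.c.xG_zero, one_mul]
    exact hF.ordW_mem _ _
  · intro β hβ hβn
    rw [← hτ]
    set v := u⁻¹ * glMap D f u with hvdef
    set b := hF.c.xG β (1 : F) with hb
    have hbU : b ∈ D.posUnipotent F := hF.xG_mem_U hβn hβ _
    have hbfix : glMap D f b = b := by
      rw [hb, sig_xG hF, map_one]
    have hbH : b ∈ H := hM b (hF.c.xG_mem_group hβn 1) hbfix
    set w := u * b * u⁻¹ * b⁻¹ with hw
    have hwH : w ∈ H := mul_mem (mul_mem (mul_mem huH hbH) (inv_mem huH)) (inv_mem hbH)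
    have hwU : w ∈ D.posUnipotent F := mul_mem (mul_mem (mul_mem huU hbU) (inv_mem huU)) (inv_mem hbU)
    have hsu : glMap D f u = u * v := by
      rw [hvdef]
      group
    have hsw : glMap D f w = u * v * b * v⁻¹ * u⁻¹ * b⁻¹ := by
      rw [hw, map_mul, map_mul, map_mul, map_inv, map_inv, hbfix, hsu]
      group
    have hc1 : b⁻¹ * v * b⁻¹⁻¹ * v⁻¹ ∈ Uk D F (k + 1) := comm_mem_Uk hF hk hkn (inv_mem hbU) hv
    have hwd : w⁻¹ * glMap D f w ∈ Uk D F (k + 1) := by
      have e : w⁻¹ * glMap D f w = (b * u) * (b⁻¹ * v * b⁻¹⁻¹ * v⁻¹) * (b * u)⁻¹ := by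
        rw [hsw, hw]
        group
      rw [e]
      exact (Subgroup.mem_set_normalizer_iff.1 (hF.U_le_normalizer_Uk (by omega) (mul_mem hbU huU)) _).1 hc1
    have hwfix : glMap D f w = w := by
      by_contra hne
      exact hnP ⟨w, hwH, hwU, hne, hwd⟩
    have h5 : u * v * b * v⁻¹ * u⁻¹ * b⁻¹ = u * b * u⁻¹ * b⁻¹ := by
      rw [← hsw, hwfix]
    have h6 : v * b * v⁻¹ = b := by
      have e : v * b * v⁻¹ = u⁻¹ * (u * v * b * v⁻¹ * u⁻¹ * b⁻¹) * b * u := by group
      rw [e, h5]
      group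
    calc v * b = (v * b * v⁻¹) * v := by group
      _ = b * v := by rw [h6]

/-- The main extraction. -/
theorem star_cases {top δ : ℕ} (htop : top < D.nroots) (htopN : R.N ≤ top) (hmax : ∀ s < D.nroots, s ≤ top)
    (hδ : δ < D.nroots) (hδN : R.N ≤ δ)
    (hcentT : ∀ r < D.nroots, R.N ≤ r → ∀ t t' : F,
      hF.c.xG top t * hF.c.xG r t' = hF.c.xG r t' * hF.c.xG top t)
    (hcentD : δ ≠ top → ∀ r < D.nroots, R.N ≤ r → ∀ t t' : F,
      hF.c.xG δ t * hF.c.xG r t' = hF.c.xG r t' * hF.c.xG δ t)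
    (hcov : ∀ k, R.N ≤ k → k < D.nroots → k ≠ top → k ≠ δ → ∃ β m i N' M', RowOK R D k β m i N' M' ∧
      ((rowZ D k β i N' M' : ℤ) : F) ≠ 0)
    (hStar : ∃ u ∈ H, u ∈ D.posUnipotent F ∧ glMap D f u ≠ u) :
    (∃ s, f s ≠ s ∧ hF.c.xG top s ∈ H) ∨
      (δ ≠ top ∧ ∃ s c, f s ≠ s ∧ hF.c.xG δ s * hF.c.xG top c ∈ H) := by
  classical
  obtain ⟨u, huH, huU, k, d, z, hk, hkn, hd, hz, hv, hcomm⟩ := exists_deep hF f H hHG hM hStar
  have hNn : R.N ≤ D.nroots := by
    have := hF.two
    omega
  have hkill : ∀ j (a : F) (z1 : GL D.Idx F), R.N ≤ j → j < D.nroots → j ≠ top → j ≠ δ → z1 ∈ Uk D F (j + 1) →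
      (∀ β, R.N ≤ β → β < D.nroots →
        (hF.c.xG j a * z1) * hF.c.xG β 1 = hF.c.xG β 1 * (hF.c.xG j a * z1)) → a = 0 := by
    intro j a z1 h1 h2 h3 h4 h5 h6
    obtain ⟨β, m, i, N', M', hrow, hne⟩ := hcov j h1 h2 h3 h4
    have h7 := lead_row hF hrow h5 (h6 β hrow.2.2.1 hrow.2.2.2.1)
    exact (mul_eq_zero.1 h7).resolve_left hne
  have hLf : ∀ x ∈ Lf D f, x ∈ H := fun x hx => hM x (Lf_le_group hF f hx) (sig_of_mem_Lf hF f hx)
  have hsu : glMap D f u = u * (hF.c.xG k d * z) := by
    rw [← hv]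
    group
  have hUk : u ∈ Uk D F R.N := by
    rw [← hF.U_eq_Uk]
    exact huU
  obtain ⟨τ, rfl⟩ := hF.exists_ordW (D.nroots - R.N) R.N (by omega) le_rfl u hUk
  rw [sig_ordW hF f (D.nroots - R.N) R.N (by omega)] at hsu
  have hktd : k = top ∨ k = δ := by
    by_contra hcon
    push Not at hcon
    exact hd (hkill k d z hk hkn hcon.1 hcon.2 hz hcomm)
  have htop1 : D.nroots ≤ top + 1 := by
    by_contra h
    have := hmax (top + 1) (by omega)
    omega
  by_cases hkt : k = top
  · rw [hkt] at hz hsu hv hcomm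
    left
    have hz1 : z = 1 := by
      rw [Uk_top_eq_bot htop1, Subgroup.mem_bot] at hz
      exact hz
    rw [hz1, mul_one] at hsu
    rw [ordW_mul_central hF htop htopN hcentT d τ (top - R.N) R.N (by omega) le_rfl] at hsu
    have h1 := hF.ordW_inj (D.nroots - R.N) R.N (by omega) le_rfl _ _ hsu
    have h2 : ∀ r, R.N ≤ r → r < D.nroots → r ≠ top → f (τ r) = τ r := by
      intro r h3 h4 h5
      have h6 := h1 r h3 h4
      rwa [Function.update_of_ne h5] at h6
    have h3 : f (τ top) = τ top + d := by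
      have h6 := h1 top htopN htop
      rwa [Function.update_self] at h6
    have h4 : hF.ordW R.N (Function.update τ top 0) ∈ Lf D f := by
      apply ordW_mem_Lf hF f (D.nroots - R.N) R.N (by omega)
      intro r h5 h6
      by_cases h7 : r = top
      · rw [h7, Function.update_self, map_zero]
      · rw [Function.update_of_ne h7, h2 r h5 h6 h7]
    have h5 : hF.ordW R.N (Function.update τ top 0) * hF.c.xG top (τ top) = hF.ordW R.N τ := by
      rw [ordW_mul_central hF htop htopN hcentT _ _ (top - R.N) R.N (by omega) le_rfl]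
      apply hF.ordW_congr
      intro r _ _
      by_cases h7 : r = top
      · rw [h7, Function.update_self, Function.update_self, zero_add]
      · rw [Function.update_of_ne h7, Function.update_of_ne h7]
    refine ⟨τ top, ?_, ?_⟩
    · rw [h3]
      intro h6
      exact hd (by linear_combination h6)
    · have e : hF.c.xG top (τ top) = (hF.ordW R.N (Function.update τ top 0))⁻¹ * hF.ordW R.N τ := by
        rw [← h5]
        group
      rw [e]
      exact mul_mem (inv_mem (hLf _ h4)) huH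
  · have hkd : k = δ := hktd.resolve_left hkt
    rw [hkd] at hz hsu hv hcomm hk hkn
    have hne : δ ≠ top := fun e => hkt (hkd.trans e)
    right
    refine ⟨hne, ?_⟩
    have hcD := hcentD hne
    -- `z` commutes with the `x_β(1)`
    have hzc : ∀ β, R.N ≤ β → β < D.nroots → z * hF.c.xG β 1 = hF.c.xG β 1 * z := by
      intro β h1 h2
      have h3 := hcomm β h1 h2
      have h4 := hcD β h2 h1 d 1
      have h5 : hF.c.xG δ d * (z * hF.c.xG β 1) = hF.c.xG δ d * (hF.c.xG β 1 * z) := by
        calc hF.c.xG δ d * (z * hF.c.xG β 1) = hF.c.xG δ d * z * hF.c.xG β 1 := by group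
          _ = hF.c.xG β 1 * (hF.c.xG δ d * z) := h3
          _ = (hF.c.xG β 1 * hF.c.xG δ d) * z := by group
          _ = hF.c.xG δ d * (hF.c.xG β 1 * z) := by rw [← h4]; group
      exact mul_left_cancel h5
    -- `z` is a top root element
    have hztop : ∀ (m j : ℕ), j + m = top → δ < j → ∀ y ∈ Uk D F j,
        (∀ β, R.N ≤ β → β < D.nroots → y * hF.c.xG β 1 = hF.c.xG β 1 * y) → ∃ e, y = hF.c.xG top e := by
      intro m
      induction m with
      | zero =>
        intro j hj hjδ y hy hyc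
        have hjt : j = top := by omega
        rw [hjt] at hy
        obtain ⟨σ', rfl⟩ := hF.exists_ordW (D.nroots - top) top (by omega) htopN y hy
        refine ⟨σ' top, ?_⟩
        rw [hF.ordW_succ htop, hF.ordW_of_ge htop1, mul_one]
      | succ m ih =>
        intro j hj hjδ y hy hyc
        have hjN : R.N ≤ j := by omega
        have hjn : j < D.nroots := by omega
        obtain ⟨σ', rfl⟩ := hF.exists_ordW (D.nroots - j) j (by omega) hjN y hy
        have h1 : σ' j = 0 := by
          apply hkill j _ (hF.ordW (j + 1) σ') hjN hjn (by omega) (by omega) (hF.ordW_mem _ _)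
          intro β h2 h3
          rw [← hF.ordW_succ hjn]
          exact hyc β h2 h3
        have h2 : hF.ordW j σ' = hF.ordW (j + 1) σ' := by
          rw [hF.ordW_succ hjn, h1, hF.c.xG_zero, one_mul]
        rw [h2] at hyc ⊢
        exact ih (j + 1) (by omega) (by omega) _ (hF.ordW_mem _ _) hyc
    have hδtop : δ < top := lt_of_le_of_ne (hmax δ hδ) hne
    obtain ⟨e, rfl⟩ := hztop (top - (δ + 1)) (δ + 1) (by omega) (by omega) z hz hzc
    -- coordinates
    have hs2 : hF.ordW R.N τ * (hF.c.xG δ d * hF.c.xG top e) =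
        hF.ordW R.N (Function.update (Function.update τ δ (τ δ + d)) top (τ top + e)) := by
      rw [← mul_assoc, ordW_mul_central hF hδ hδN hcD d τ (δ - R.N) R.N (by omega) le_rfl,
        ordW_mul_central hF htop htopN hcentT e _ (top - R.N) R.N (by omega) le_rfl,
        Function.update_of_ne (Ne.symm hne)]
    rw [hs2] at hsu
    have h1 := hF.ordW_inj (D.nroots - R.N) R.N (by omega) le_rfl _ _ hsu
    have h2 : ∀ r, R.N ≤ r → r < D.nroots → r ≠ top → r ≠ δ → f (τ r) = τ r := by
      intro r h3 h4 h5 h6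
      have h7 := h1 r h3 h4
      rwa [Function.update_of_ne h5, Function.update_of_ne h6] at h7
    have h3 : f (τ δ) = τ δ + d := by
      have h7 := h1 δ hδN hδ
      rwa [Function.update_of_ne hne, Function.update_self] at h7
    set τ0 := Function.update (Function.update τ δ 0) top 0 with hτ0
    have h4 : hF.ordW R.N τ0 ∈ Lf D f := by
      apply ordW_mem_Lf hF f (D.nroots - R.N) R.N (by omega)
      intro r h5 h6
      by_cases h7 : r = top
      · rw [hτ0, h7, Function.update_self, map_zero]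
      · by_cases h8 : r = δ
        · rw [hτ0, Function.update_of_ne h7, h8, Function.update_self, map_zero]
        · rw [hτ0, Function.update_of_ne h7, Function.update_of_ne h8, h2 r h5 h6 h7 h8]
    have h5 : hF.ordW R.N τ0 * (hF.c.xG δ (τ δ) * hF.c.xG top (τ top)) = hF.ordW R.N τ := by
      rw [← mul_assoc, ordW_mul_central hF hδ hδN hcD _ τ0 (δ - R.N) R.N (by omega) le_rfl,
        ordW_mul_central hF htop htopN hcentT _ _ (top - R.N) R.N (by omega) le_rfl]
      apply hF.ordW_congr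
      intro r _ _
      by_cases h7 : r = top
      · rw [h7, Function.update_self, Function.update_of_ne (Ne.symm hne), hτ0, Function.update_self, zero_add]
      · rw [Function.update_of_ne h7]
        by_cases h8 : r = δ
        · rw [h8, Function.update_self, hτ0, Function.update_of_ne hne, Function.update_self, zero_add]
        · rw [Function.update_of_ne h8, hτ0, Function.update_of_ne h7, Function.update_of_ne h8]
    refine ⟨τ δ, τ top, ?_, ?_⟩
    · rw [h3]
      intro h6
      exact hd (by linear_combination h6)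
    · have e1 : hF.c.xG δ (τ δ) * hF.c.xG top (τ top) = (hF.ordW R.N τ0)⁻¹ * hF.ordW R.N τ := by
        rw [← h5]
        group
      rw [e1]
      exact mul_mem (inv_mem (hLf _ h4)) huH

end Over

end Cfsg.Agent.Lib.ChevSub
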