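import Mathlib
import Cfsg.Agent.Lib.ChevSub.Deep

/-!
# From root elements over a larger set to the whole group

The sets `V_r = {t | x_r(t) ∈ H}` for an overgroup `H` of the fixed points of `σ`.
-/

set_option autoImplicit false
set_option linter.unusedSectionVars false
set_option linter.unusedVariables false
set_option linter.unnecessarySimpa false

namespace Cfsg.Agent.Lib.ChevSub

open Cfsg Cfsg.Lie Matrix Cfsg.Agent.Lib.Chev Cfsg.Agent.Lib.Chev.Full Cfsg.Agent.Lib.Chev.Tri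
open Cfsg.Agent.Lib.ChevTransfer Cfsg.Agent.Lib.ChevAut.SubField
open Cfsg.Agent.Lib.ChevAut.ParabFit Cfsg.Agent.Lib.ChevInv Cfsg.Agent.Lib.ChevInv.CentG

variable {T : Tabs} {X : Extra} {R : RootTab} {D : ChevalleyDatum} (hF : Full T X R D)
variable {F : Type*} [Field F] (f : F ≃+* F)

/-- The subfield hypothesis. -/
def SubHyp (f : F ≃+* F) : Prop :=
  ∀ V : AddSubgroup F, (∀ c, f c = c → c ∈ V) → (∀ a ∈ V, ∀ b ∈ V, a * b ∈ V) → ∀ s ∈ V, f s ≠ s → V = ⊤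

include hF

section Over

variable (H : Subgroup (GL D.Idx F)) (hHG : H ≤ D.group F)
  (hM : ∀ g ∈ D.group F, glMap D f g = g → g ∈ H)

omit hHG in
include hM in
theorem x_rat {r : ℕ} (hr : r < D.nroots) {t : F} (ht : f t = t) : hF.c.xG r t ∈ H :=
  hM _ (hF.c.xG_mem_group hr t) (by rw [sig_xG hF, ht])

omit hHG hF in
theorem x_add_mem (hF : Full T X R D) {r : ℕ} {a b : F} (ha : hF.c.xG r a ∈ H) (hb : hF.c.xG r b ∈ H) :
    hF.c.xG r (a + b) ∈ H := by
  rw [← hF.c.xG_add]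
  exact mul_mem ha hb

omit hHG hF in
theorem x_neg_mem (hF : Full T X R D) {r : ℕ} {a : F} (ha : hF.c.xG r a ∈ H) : hF.c.xG r (-a) ∈ H := by
  rw [← hF.c.xG_inv]
  exact inv_mem ha

/-- `V_r` as an additive subgroup. -/
def Vs (hF : Full T X R D) (H : Subgroup (GL D.Idx F)) (r : ℕ) : AddSubgroup F where
  carrier := {t | hF.c.xG r t ∈ H}
  add_mem' := fun ha hb => x_add_mem H hF ha hb
  zero_mem' := by
    show hF.c.xG r 0 ∈ H
    rw [hF.c.xG_zero]
    exact one_mem _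
  neg_mem' := fun ha => x_neg_mem H hF ha

omit hHG in
include hM in
theorem nS_mem {i : ℕ} (hi : i < D.rank) : hF.nS (F := F) i ∈ H :=
  hM _ (hF.nS_mem_group hi) (sig_nS hF f i)

omit hHG in
include hM in
/-- `V_r` is invariant under the Weyl group. -/
theorem wf_mem {i r : ℕ} (hi : i < D.rank) (hr : r < D.nroots) {t : F} (h : hF.c.xG r t ∈ H) :
    hF.c.xG (X.wf i r) t ∈ H := by
  have h1 := mul_mem (mul_mem (nS_mem hF f H hM hi) h) (inv_mem (nS_mem hF f H hM hi))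
  rw [hF.nS_conj_xG hi hr] at h1
  rcases mul_self_eq_one_iff.1 (hF.eta_mul_self hi hr) with e | e
  · rw [e] at h1
    simpa using h1
  · rw [e] at h1
    have h2 := x_neg_mem H hF h1
    simpa using h2

omit hHG in
include hM in
/-- Transfer inside a class of roots. -/
theorem orbit_iff {κ : ℕ} {L : ℕ → Prop} (hκ : κ < D.nroots)
    (hup : ∀ r < D.nroots, L r → r ≠ κ → ∃ i < D.rank, r < X.wf i r ∧ L (X.wf i r)) :
    ∀ (m r : ℕ), r + m = D.nroots → r < D.nroots → L r → ∀ t : F, hF.c.xG r t ∈ H ↔ hF.c.xG κ t ∈ H := by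
  intro m
  induction m using Nat.strong_induction_on with
  | _ m ih =>
    intro r hm hr hL t
    by_cases hrk : r = κ
    · rw [hrk]
    · obtain ⟨i, hi, h1, h2⟩ := hup r hr hL hrk
      have hw := hF.wf_lt hi hr
      have h3 := ih (D.nroots - X.wf i r) (by omega) (X.wf i r) (by omega) hw h2 t
      constructor
      · intro h4
        exact h3.1 (wf_mem hF f H hM hi hr h4)
      · intro h4
        have h5 := wf_mem hF f H hM hi hw (h3.2 h4)
        rwa [hF.wf_wf hi hr] at h5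

omit hHG in
omit H in
theorem wordG_vanish (L' : List (ℕ × ℤ × ℕ × ℕ)) (hL : ∀ c ∈ L', ((c.2.1 : ℤ) : F) = 0) {t u : F} :
    hF.c.wordG (L'.map fun c => (c.1, ((c.2.1 : ℤ) : F) * (-t) ^ c.2.2.1 * u ^ c.2.2.2)) = 1 := by
  induction L' with
  | nil => exact Checks.wordG_nil _
  | cons c L ih =>
    rw [List.map_cons, Checks.wordG_cons, ih (fun c' hc' => hL c' (List.mem_cons_of_mem _ hc'))]
    simp only
    rw [hL c List.mem_cons_self]
    simp

omit hHG in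
/-- The commutator formula with a single effective term. -/
theorem triple_mem {r s m : ℕ} {C : ℤ} {L' : List (ℕ × ℤ × ℕ × ℕ)} (hr : r < D.nroots) (hs : s < D.nroots)
    (h1 : s ≠ r) (h2 : s ≠ D.neg r) (hterms : D.commTerms r s = (m, C, 1, 1) :: L')
    (hL : ∀ c ∈ L', ((c.2.1 : ℤ) : F) = 0) {t u : F} (ht : hF.c.xG r t ∈ H) (hu : hF.c.xG s u ∈ H) :
    hF.c.xG m ((C : F) * (-t) * u) ∈ H := by
  have h3 := hF.xG_comm hr hs h1 h2 t u
  have h4 : hF.c.wordG (D.commWord F r s t u) = hF.c.xG m ((C : F) * (-t) * u) := by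
    unfold ChevalleyDatum.commWord
    rw [hterms, List.map_cons, Checks.wordG_cons]
    simp only [pow_one]
    rw [wordG_vanish hF L' hL, mul_one]
  rw [h4] at h3
  have h6 : hF.c.xG m ((C : F) * (-t) * u) =
      (hF.c.xG r t * hF.c.xG s u)⁻¹ * (hF.c.xG s u * hF.c.xG r t) := by
    rw [h3]
    group
  rw [h6]
  exact mul_mem (inv_mem (mul_mem ht hu)) (mul_mem hu ht)

omit hHG in
include hM in
/-- A class of roots with a triple: the whole field. -/
theorem long_full {κ r s m : ℕ} {L : ℕ → Prop} (hκ : κ < D.nroots)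
    (hup : ∀ r < D.nroots, L r → r ≠ κ → ∃ i < D.rank, r < X.wf i r ∧ L (X.wf i r))
    (hr : r < D.nroots) (hs : s < D.nroots) (hm : m < D.nroots) (hLr : L r) (hLs : L s) (hLm : L m)
    (h1 : s ≠ r) (h2 : s ≠ D.neg r) {C : ℤ} {L' : List (ℕ × ℤ × ℕ × ℕ)}
    (hterms : D.commTerms r s = (m, C, 1, 1) :: L') (hL : ∀ c ∈ L', ((c.2.1 : ℤ) : F) = 0)
    (hC : (C : F) = 1 ∨ (C : F) = -1) (hSub : SubHyp f) {s0 : F} (hs0 : f s0 ≠ s0)
    (hx : hF.c.xG κ s0 ∈ H) : ∀ r' < D.nroots, L r' → ∀ t : F, hF.c.xG r' t ∈ H := by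
  have hor := orbit_iff hF f H hM hκ hup
  have hor' : ∀ r' < D.nroots, L r' → ∀ t : F, hF.c.xG r' t ∈ H ↔ hF.c.xG κ t ∈ H :=
    fun r' h3 h4 t => hor (D.nroots - r') r' (by omega) h3 h4 t
  have hV : Vs hF H κ = ⊤ := by
    apply hSub (Vs hF H κ) (fun c hc => x_rat hF f H hM hκ hc) ?_ s0 hx hs0
    intro a ha b hb
    have h3 := triple_mem hF H hr hs h1 h2 hterms hL ((hor' r hr hLr a).2 ha) ((hor' s hs hLs b).2 hb)
    have h4 := (hor' m hm hLm _).1 h3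
    show hF.c.xG κ (a * b) ∈ H
    rcases hC with e | e
    · rw [e] at h4
      have h5 := x_neg_mem H hF h4
      simpa using h5
    · rw [e] at h4
      simpa using h4
  intro r' h3 h4 t
  apply (hor' r' h3 h4 t).2
  have : t ∈ Vs hF H κ := by
    rw [hV]
    exact AddSubgroup.mem_top t
  exact this

omit hHG in
include hM in
/-- The torus step. -/
theorem torus_step {j s : ℕ} (hj : j < D.rank) (hs : s < D.nroots)
    (hV : ∀ t : F, hF.c.xG (D.simple j) t ∈ H) (hV' : ∀ t : F, hF.c.xG (D.neg (D.simple j)) t ∈ H) (c : Fˣ) :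
    hF.c.xG s (((c ^ D.cartan j s : Fˣ) : F)) ∈ H := by
  have h1 : hF.c.hG (D.simple j) (c : F) ∈ H := by
    unfold Checks.hG Checks.nG
    exact mul_mem (mul_mem (mul_mem (hV _) (hV' _)) (hV _)) (mul_mem (mul_mem (hV _) (hV' _)) (hV _))
  rw [hF.hSimple_eq_tor ⟨j, hj⟩ c] at h1
  have h2 := mul_mem (mul_mem h1 (x_rat hF f H hM hs (map_one f))) (inv_mem h1)
  rw [hF.tor_conj_xG _ hs, hF.mulSingle_chiT, mul_one] at h2
  exact h2

omit hHG in
include hM in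
/-- From a torus step with exponent a unit of the exponent set to a whole root subgroup. -/
theorem torus_full {j s : ℕ} (hj : j < D.rank) (hs : s < D.nroots)
    (hV : ∀ t : F, hF.c.xG (D.simple j) t ∈ H) (hV' : ∀ t : F, hF.c.xG (D.neg (D.simple j)) t ∈ H)
    (hpow : ∀ t : F, t ≠ 0 → ∃ c : Fˣ, ((c ^ D.cartan j s : Fˣ) : F) = t) (t : F) :
    hF.c.xG s t ∈ H := by
  by_cases ht : t = 0
  · rw [ht, hF.c.xG_zero]
    exact one_mem _
  · obtain ⟨c, hc⟩ := hpow t ht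
    rw [← hc]
    exact torus_step hF f H hM hj hs hV hV' c

omit hF in
theorem pow_one_or (e : ℤ) (he : e = 1 ∨ e = -1) (t : F) (ht : t ≠ 0) :
    ∃ c : Fˣ, ((c ^ e : Fˣ) : F) = t := by
  rcases he with rfl | rfl
  · exact ⟨Units.mk0 t ht, by simp⟩
  · exact ⟨(Units.mk0 t ht)⁻¹, by simp⟩

omit hHG in
include hM in
/-- Non simply laced types: from a long root element over a larger set. -/
theorem case_A {top δS r s m j s1 : ℕ} {L : ℕ → Prop} (htop : top < D.nroots) (hδS : δS < D.nroots)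
    (hup : ∀ r < D.nroots, L r → r ≠ top → ∃ i < D.rank, r < X.wf i r ∧ L (X.wf i r))
    (hupS : ∀ r < D.nroots, ¬ L r → r ≠ δS → ∃ i < D.rank, r < X.wf i r ∧ ¬ L (X.wf i r))
    (hr : r < D.nroots) (hs : s < D.nroots) (hm : m < D.nroots) (hLr : L r) (hLs : L s) (hLm : L m)
    (h1 : s ≠ r) (h2 : s ≠ D.neg r) {C : ℤ}
    (hterms : D.commTerms r s = [(m, C, 1, 1)]) (hC : C = 1 ∨ C = -1)
    (hj : j < D.rank) (hjL : L (D.simple j)) (hjL' : L (D.neg (D.simple j)))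
    (hs1 : s1 < D.nroots) (hs1L : ¬ L s1) (hcar : D.cartan j s1 = 1 ∨ D.cartan j s1 = -1)
    (hSub : SubHyp f) {s0 : F} (hs0 : f s0 ≠ s0) (hx : hF.c.xG top s0 ∈ H) :
    ∀ r' < D.nroots, ∀ t : F, hF.c.xG r' t ∈ H := by
  have hL1 := long_full hF f H hM htop hup hr hs hm hLr hLs hLm h1 h2 hterms (by simp) (by
    rcases hC with rfl | rfl <;> simp) hSub hs0 hx
  have hsj := hF.simple_lt hj
  have hS1 : ∀ t : F, hF.c.xG s1 t ∈ H :=
    torus_full hF f H hM hj hs1 (hL1 _ hsj hjL) (hL1 _ (hF.neg_lt hsj) hjL') (fun t ht => pow_one_or _ hcar t ht)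
  have hor := orbit_iff hF f H hM (L := fun r => ¬ L r) hδS hupS
  intro r' hr' t
  by_cases hl : L r'
  · exact hL1 r' hr' hl t
  · apply (hor (D.nroots - r') r' (by omega) hr' hl t).2
    exact (hor (D.nroots - s1) s1 (by omega) hs1 hs1L t).1 (hS1 t)

omit hHG in
include hM in
/-- Non simply laced types: from a product `x_δ(s) x_top(c)`. -/
theorem case_B {top δ r s m j s1 r2 s2 m2 j2 s3 j0 θ' : ℕ} {L : ℕ → Prop} (htop : top < D.nroots) (hδ : δ < D.nroots)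
    (hup : ∀ r < D.nroots, L r → r ≠ top → ∃ i < D.rank, r < X.wf i r ∧ L (X.wf i r))
    (hupS : ∀ r < D.nroots, ¬ L r → r ≠ δ → ∃ i < D.rank, r < X.wf i r ∧ ¬ L (X.wf i r))
    (hr : r < D.nroots) (hs : s < D.nroots) (hm : m < D.nroots) (hLr : L r) (hLs : L s) (hLm : L m)
    (h1 : s ≠ r) (h2 : s ≠ D.neg r) {C : ℤ}
    (hterms : D.commTerms r s = [(m, C, 1, 1)]) (hC : C = 1 ∨ C = -1)
    (hj : j < D.rank) (hjL : L (D.simple j)) (hjL' : L (D.neg (D.simple j)))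
    (hs1 : s1 < D.nroots) (hs1L : ¬ L s1) (hcar : D.cartan j s1 = 1 ∨ D.cartan j s1 = -1)
    -- the short triple
    (hr2 : r2 < D.nroots) (hs2 : s2 < D.nroots) (hm2 : m2 < D.nroots) (hLr2 : ¬ L r2) (hLs2 : ¬ L s2) (hLm2 : ¬ L m2)
    (h12 : s2 ≠ r2) (h22 : s2 ≠ D.neg r2) {C2 : ℤ} {L2 : List (ℕ × ℤ × ℕ × ℕ)}
    (hterms2 : D.commTerms r2 s2 = (m2, C2, 1, 1) :: L2) (hL2 : ∀ c ∈ L2, ((c.2.1 : ℤ) : F) = 0)
    (hC2 : (C2 : F) = 1 ∨ (C2 : F) = -1)
    -- the torus step from short to long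
    (hj2 : j2 < D.rank) (hj2L : ¬ L (D.simple j2)) (hj2L' : ¬ L (D.neg (D.simple j2)))
    (hs3 : s3 < D.nroots) (hs3L : L s3)
    (hpow : ∀ t : F, t ≠ 0 → ∃ c : Fˣ, ((c ^ D.cartan j2 s3 : Fˣ) : F) = t)
    -- the reflection
    (hj0 : j0 < D.rank) (hwδ : X.wf j0 δ = δ) (hθ' : X.wf j0 top = θ') (hθ'n : θ' < D.nroots)
    (hne1 : θ' ≠ D.simple j0) (hne2 : θ' ≠ D.neg (D.simple j0)) {C3 : ℤ}
    (hterms3 : D.commTerms (D.simple j0) θ' = [(top, C3, 1, 1)]) (hC3 : C3 = 1 ∨ C3 = -1)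
    (hcomm0 : ∀ a : F, hF.c.xG δ a * hF.c.xG (D.simple j0) 1 = hF.c.xG (D.simple j0) 1 * hF.c.xG δ a)
    (hSub : SubHyp f) {s0 c0 : F} (hs0 : f s0 ≠ s0) (hx : hF.c.xG δ s0 * hF.c.xG top c0 ∈ H) :
    ∀ r' < D.nroots, ∀ t : F, hF.c.xG r' t ∈ H := by
  have hsj0 := hF.simple_lt hj0
  -- the conjugate
  have h3 := mul_mem (mul_mem (nS_mem hF f H hM hj0) hx) (inv_mem (nS_mem hF f H hM hj0))
  have e1 : hF.nS j0 * (hF.c.xG δ s0 * hF.c.xG top c0) * (hF.nS j0)⁻¹ =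
      (hF.nS j0 * hF.c.xG δ s0 * (hF.nS j0)⁻¹) * (hF.nS j0 * hF.c.xG top c0 * (hF.nS j0)⁻¹) := by group
  rw [e1, hF.nS_conj_xG hj0 hδ, hF.nS_conj_xG hj0 htop, hwδ, hθ'] at h3
  set a : F := ((X.eta j0 δ : ℤ) : F) * s0 with ha
  set b : F := ((X.eta j0 top : ℤ) : F) * c0 with hb
  have hx0 : hF.c.xG (D.simple j0) (1 : F) ∈ H := x_rat hF f H hM hsj0 (map_one f)
  have h4 := hF.xG_comm hsj0 hθ'n hne1 hne2 (1 : F) b
  have h5 : hF.c.wordG (D.commWord F (D.simple j0) θ' 1 b) = hF.c.xG top ((C3 : F) * (-1) * b) := by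
    unfold ChevalleyDatum.commWord
    rw [hterms3]
    simp [Checks.wordG_cons, Checks.wordG_nil]
  rw [h5] at h4
  have h6 : hF.c.xG top ((C3 : F) * (-1) * b) =
      (hF.c.xG δ a * hF.c.xG θ' b)⁻¹ * (hF.c.xG (D.simple j0) 1)⁻¹ * (hF.c.xG δ a * hF.c.xG θ' b) *
        hF.c.xG (D.simple j0) 1 := by
    have e2 : (hF.c.xG δ a * hF.c.xG θ' b) * hF.c.xG (D.simple j0) 1 =
        hF.c.xG (D.simple j0) 1 * (hF.c.xG δ a * hF.c.xG θ' b) * hF.c.xG top ((C3 : F) * (-1) * b) := by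
      rw [mul_assoc, h4, ← mul_assoc, ← mul_assoc, hcomm0 a]
      group
    rw [mul_assoc _ _ (hF.c.xG (D.simple j0) 1), e2]
    group
  have h7 : hF.c.xG top ((C3 : F) * (-1) * b) ∈ H := by
    rw [h6]
    exact mul_mem (mul_mem (mul_mem (inv_mem h3) (inv_mem hx0)) h3) hx0
  -- so `c0` belongs to `V_top`
  have h8 : hF.c.xG top c0 ∈ H := by
    have e3 : (C3 : F) * (-1) * b = ((- C3 * X.eta j0 top : ℤ) : F) * c0 := by
      rw [hb]
      push_cast
      ring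
    rw [e3] at h7
    have h9 : (- C3 * X.eta j0 top) = 1 ∨ (- C3 * X.eta j0 top) = -1 := by
      rcases mul_self_eq_one_iff.1 (hF.eta_mul_self hj0 htop) with e | e <;> rcases hC3 with e' | e' <;>
        rw [e, e'] <;> simp
    rcases h9 with e | e
    · rw [e] at h7
      simpa using h7
    · rw [e] at h7
      have := x_neg_mem H hF h7
      simpa using this
  by_cases hc0 : f c0 = c0
  · -- a pure short root element
    have h10 : hF.c.xG δ s0 ∈ H := by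
      have e : hF.c.xG δ s0 = (hF.c.xG δ s0 * hF.c.xG top c0) * (hF.c.xG top c0)⁻¹ := by group
      rw [e]
      exact mul_mem hx (inv_mem h8)
    have hS := long_full hF f H hM (L := fun r => ¬ L r) hδ hupS hr2 hs2 hm2 hLr2 hLs2 hLm2 h12 h22 hterms2 hL2 hC2 hSub hs0 h10
    have hsj2 := hF.simple_lt hj2
    have hS3 : ∀ t : F, hF.c.xG s3 t ∈ H :=
      torus_full hF f H hM hj2 hs3 (hS _ hsj2 hj2L) (hS _ (hF.neg_lt hsj2) hj2L') hpow
    have hor := orbit_iff hF f H hM (L := L) htop hup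
    intro r' hr' t
    by_cases hl : L r'
    · apply (hor (D.nroots - r') r' (by omega) hr' hl t).2
      exact (hor (D.nroots - s3) s3 (by omega) hs3 hs3L t).1 (hS3 t)
    · exact hS r' hr' hl t
  · exact case_A hF f H hM htop hδ hup hupS hr hs hm hLr hLs hLm h1 h2 hterms hC hj hjL hjL' hs1 hs1L hcar hSub hc0 h8

end Over

end Cfsg.Agent.Lib.ChevSub
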