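import Mathlib
import Cfsg.Agent.Lib.ChevSub.Close
import Cfsg.Agent.Lib.Chev.RelB2
import Cfsg.Agent.Lib.Chev.RootB2

/-!
# Type `B₂`: from an irrational element of `H ∩ U` to the whole group
-/

set_option autoImplicit false
set_option linter.unusedSectionVars false
set_option linter.unusedVariables false
set_option linter.unnecessarySimpa false
set_option maxRecDepth 100000

namespace Cfsg.Agent.Lib.ChevSub.B2

open Cfsg Cfsg.Lie Matrix Cfsg.Agent.Lib.Chev Cfsg.Agent.Lib.Chev.Full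
open Cfsg.Agent.Lib.ChevTransfer Cfsg.Agent.Lib.ChevAut.SubField Cfsg.Agent.Lib.ChevInv
open Cfsg.Agent.Lib.ChevSub Cfsg.Agent.Lib.Chev.TabB2 Cfsg.Agent.Lib.Chev.RootB2T

theorem hF : Full T X R chevB2 := ⟨RelB2.checks, RootB2.checks⟩

theorem w45 : X.wf 1 5 = 6 := by decide +kernel
theorem w47 : X.wf 0 4 = 7 := by decide +kernel
theorem w06 : X.wf 0 6 = 6 := by decide +kernel
theorem w17 : X.wf 1 7 = 7 := by decide +kernel
theorem w14 : X.wf 1 4 = 3 := by decide +kernel
theorem w03 : X.wf 0 3 = 0 := by decide +kernel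
theorem w05 : X.wf 0 5 = 2 := by decide +kernel
theorem w12 : X.wf 1 2 = 1 := by decide +kernel
theorem t45 : chevB2.commTerms 4 5 = [(6, 1, 1, 1), (7, -1, 1, 2)] := by decide +kernel
theorem t56 : chevB2.commTerms 5 6 = [(7, 2, 1, 1)] := by decide +kernel
theorem t46 : chevB2.commTerms 4 6 = [] := by decide +kernel
theorem t47 : chevB2.commTerms 4 7 = [] := by decide +kernel
theorem t57 : chevB2.commTerms 5 7 = [] := by decide +kernel
theorem t67 : chevB2.commTerms 6 7 = [] := by decide +kernel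
theorem c07 : chevB2.cartan 0 7 = 2 := by decide +kernel
theorem neg45 : chevB2.neg 4 = 3 ∧ chevB2.neg 5 = 2 ∧ chevB2.neg 6 = 1 := by decide +kernel
theorem neg7 : chevB2.neg 7 = 0 := by decide +kernel

section

variable {F : Type*} [Field F] (f : F ≃+* F) (H : Subgroup (GL chevB2.Idx F))
  (hM : ∀ g ∈ chevB2.group F, glMap chevB2 f g = g → g ∈ H)

local notation "x" => hF.c.xG

theorem comm45 (t u : F) : x 5 u * x 4 t = x 4 t * x 5 u * (x 6 (-(t * u)) * x 7 (t * u ^ 2)) := by
  have h := hF.xG_comm (r := 4) (s := 5) (by decide) (by decide) (by decide) (by decide +kernel) t u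
  have e : hF.c.wordG (chevB2.commWord F 4 5 t u) = x 6 (-(t * u)) * x 7 (t * u ^ 2) := by
    unfold ChevalleyDatum.commWord
    rw [t45]
    simp only [List.map_cons, List.map_nil, Checks.wordG_cons, Checks.wordG_nil, mul_one]
    congr 2
    · push_cast
      ring
    · push_cast
      ring
  rw [h, e]

theorem comm56 (t u : F) : x 6 u * x 5 t = x 5 t * x 6 u * x 7 (-(2 * t * u)) := by
  have h := hF.xG_comm (r := 5) (s := 6) (by decide) (by decide) (by decide) (by decide +kernel) t u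
  have e : hF.c.wordG (chevB2.commWord F 5 6 t u) = x 7 (-(2 * t * u)) := by
    unfold ChevalleyDatum.commWord
    rw [t56]
    simp only [List.map_cons, List.map_nil, Checks.wordG_cons, Checks.wordG_nil, mul_one]
    congr 1
    push_cast
    ring
  rw [h, e]

theorem comm_nil {r s : ℕ} (hr : r < chevB2.nroots) (hs : s < chevB2.nroots) (h1 : s ≠ r) (h2 : s ≠ chevB2.neg r)
    (h3 : chevB2.commTerms r s = []) (t u : F) : x s u * x r t = x r t * x s u := by
  have h := hF.xG_comm hr hs h1 h2 t u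
  rw [h, ChevalleyDatum.commWord, h3]
  simp [Checks.wordG_nil]

theorem c46 (t u : F) : x 6 u * x 4 t = x 4 t * x 6 u :=
  comm_nil (by decide) (by decide) (by decide) (by decide +kernel) t46 t u
theorem c47 (t u : F) : x 7 u * x 4 t = x 4 t * x 7 u :=
  comm_nil (by decide) (by decide) (by decide) (by decide +kernel) t47 t u
theorem c57 (t u : F) : x 7 u * x 5 t = x 5 t * x 7 u :=
  comm_nil (by decide) (by decide) (by decide) (by decide +kernel) t57 t u
theorem c67 (t u : F) : x 7 u * x 6 t = x 6 t * x 7 u :=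
  comm_nil (by decide) (by decide) (by decide) (by decide +kernel) t67 t u

include hM

theorem v74 {t : F} : x 7 t ∈ H ↔ x 4 t ∈ H := by
  constructor
  · intro h
    have h1 := wf_mem hF f H hM (i := 0) (r := 7) (by decide) (by decide) h
    have e : X.wf 0 7 = 4 := by decide +kernel
    rwa [e] at h1
  · intro h
    have h1 := wf_mem hF f H hM (i := 0) (r := 4) (by decide) (by decide) h
    rwa [w47] at h1

theorem v65 {t : F} : x 6 t ∈ H ↔ x 5 t ∈ H := by
  constructor
  · intro h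
    have h1 := wf_mem hF f H hM (i := 1) (r := 6) (by decide) (by decide) h
    have e : X.wf 1 6 = 5 := by decide +kernel
    rwa [e] at h1
  · intro h
    have h1 := wf_mem hF f H hM (i := 1) (r := 5) (by decide) (by decide) h
    rwa [w45] at h1

/-- All root elements from those of two roots. -/
theorem all_of (h7 : ∀ t : F, x 7 t ∈ H) (h6 : ∀ t : F, x 6 t ∈ H) :
    ∀ r < chevB2.nroots, ∀ t : F, x r t ∈ H := by
  intro r hr t
  have hr' : r < 8 := hr
  have h4 : x 4 t ∈ H := (v74 f H hM).1 (h7 t)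
  have h5 : x 5 t ∈ H := (v65 f H hM).1 (h6 t)
  have h3 : x 3 t ∈ H := by
    have h1 := wf_mem hF f H hM (i := 1) (r := 4) (by decide) (by decide) h4
    rwa [w14] at h1
  have h0 : x 0 t ∈ H := by
    have h1 := wf_mem hF f H hM (i := 0) (r := 3) (by decide) (by decide) h3
    rwa [w03] at h1
  have h2 : x 2 t ∈ H := by
    have h1 := wf_mem hF f H hM (i := 0) (r := 5) (by decide) (by decide) h5
    rwa [w05] at h1
  have h1' : x 1 t ∈ H := by
    have h1 := wf_mem hF f H hM (i := 1) (r := 2) (by decide) (by decide) h2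
    rwa [w12] at h1
  interval_cases r
  · exact h0
  · exact h1'
  · exact h2
  · exact h3
  · exact h4
  · exact h5
  · exact h6 t
  · exact h7 t

/-- The odd characteristic case. -/
theorem b2_odd {p : ℕ} (hp : Odd p) [CharP F p] (hSub : SubHyp f) {s0 : F} (hs0 : f s0 ≠ s0)
    (hx : x 7 s0 ∈ H) : ∀ r < chevB2.nroots, ∀ t : F, x r t ∈ H := by
  have hhalf : ∀ (V : AddSubgroup F) {t : F}, 2 * t ∈ V → t ∈ V := by
    intro V t h
    obtain ⟨k, hk⟩ := hp
    have h1 : (k + 1) • (2 * t) ∈ V := V.nsmul_mem h _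
    have h2 : (k + 1) • (2 * t) = t := by
      have h3 : ((p : ℕ) : F) = 0 := CharP.cast_eq_zero F p
      rw [hk] at h3
      push_cast at h3
      rw [nsmul_eq_mul]
      push_cast
      linear_combination t * h3
    rwa [h2] at h1
  have h1F : x 5 (1 : F) ∈ H := x_rat hF f H hM (by decide) (map_one f)
  have h1F' : x 5 (-1 : F) ∈ H := x_rat hF f H hM (by decide) (by simp)
  have hAB : ∀ t : F, x 7 t ∈ H → x 6 t ∈ H := by
    intro t ht
    have ht4 := (v74 f H hM).1 ht
    have hw : ∀ u : F, x 5 u ∈ H → x 6 (-(t * u)) * x 7 (t * u ^ 2) ∈ H := by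
      intro u hu
      have e := comm45 t u
      have e2 : x 6 (-(t * u)) * x 7 (t * u ^ 2) = (x 4 t * x 5 u)⁻¹ * (x 5 u * x 4 t) := by
        rw [e]
        group
      rw [e2]
      exact mul_mem (inv_mem (mul_mem ht4 hu)) (mul_mem hu ht4)
    have h2 := hw 1 h1F
    have h3 := hw (-1) h1F'
    have h4 := mul_mem h3 (inv_mem h2)
    have e : x 6 (-(t * -1)) * x 7 (t * (-1) ^ 2) * (x 6 (-(t * 1)) * x 7 (t * 1 ^ 2))⁻¹ = x 6 (2 * t) := by
      have e1 : x 7 (t * (-1) ^ 2) = x 7 (t * 1 ^ 2) := by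
        congr 1
        ring
      rw [e1]
      have e2 : x 6 (-(t * -1)) * x 7 (t * 1 ^ 2) * (x 6 (-(t * 1)) * x 7 (t * 1 ^ 2))⁻¹ =
          x 6 (-(t * -1)) * (x 6 (-(t * 1)))⁻¹ := by group
      rw [e2, hF.c.xG_inv, hF.c.xG_add]
      congr 1
      ring
    rw [e] at h4
    exact hhalf (Vs hF H 6) h4
  have hBB : ∀ t u : F, x 6 t ∈ H → x 6 u ∈ H → x 7 (t * u) ∈ H := by
    intro t u ht hu
    have ht5 := (v65 f H hM).1 ht
    have e := comm56 t u
    have e2 : x 7 (-(2 * t * u)) = (x 5 t * x 6 u)⁻¹ * (x 6 u * x 5 t) := by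
      rw [e]
      group
    have h2 : x 7 (-(2 * t * u)) ∈ H := by
      rw [e2]
      exact mul_mem (inv_mem (mul_mem ht5 hu)) (mul_mem hu ht5)
    have h3 := x_neg_mem H hF h2
    rw [_root_.neg_neg, mul_assoc] at h3
    exact hhalf (Vs hF H 7) h3
  have hV : Vs hF H 7 = ⊤ := by
    apply hSub (Vs hF H 7) (fun c hc => x_rat hF f H hM (by decide) hc) ?_ s0 hx hs0
    intro a ha b hb
    exact hBB a b (hAB a ha) (hAB b hb)
  have h7 : ∀ t : F, x 7 t ∈ H := by
    intro t
    have : t ∈ Vs hF H 7 := by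
      rw [hV]
      exact AddSubgroup.mem_top t
    exact this
  exact all_of f H hM h7 (fun t => hAB t (h7 t))

section two

variable [CharP F 2] [Finite F]

omit hM in
theorem eta_one {i s : ℕ} (hi : i < chevB2.rank) (hs : s < chevB2.nroots) : ((X.eta i s : ℤ) : F) = 1 := by
  have h := hF.eta_sq (F := F) hi hs
  have h2 : ((X.eta i s : ℤ) : F) + 1 = 0 ∨ False := by
    left
    have h3 : (((X.eta i s : ℤ) : F) + 1) * (((X.eta i s : ℤ) : F) + 1) = 0 := by
      have h4 : (2 : F) = 0 := CharTwo.two_eq_zero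
      linear_combination h + (((X.eta i s : ℤ) : F) + 1) * h4
    exact mul_self_eq_zero.1 h3
  rcases h2 with h2 | h2
  · exact CharTwo.add_eq_zero.1 h2
  · exact h2.elim

omit hM in
theorem c56' (t u : F) : x 6 u * x 5 t = x 5 t * x 6 u := by
  have h := comm56 t u
  have h2 : -(2 * t * u) = 0 := by
    rw [CharTwo.two_eq_zero]
    ring
  rw [h2, hF.c.xG_zero, mul_one] at h
  exact h

omit hM in
theorem comm45' (t u : F) : x 5 u * x 4 t = x 4 t * x 5 u * (x 6 (t * u) * x 7 (t * u ^ 2)) := by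
  have h := comm45 t u
  rwa [CharTwo.neg_eq] at h

theorem c2_conj {r s i : ℕ} (hi : i < chevB2.rank) (hr : r < chevB2.nroots) (hs : s < chevB2.nroots) {a b : F}
    (h : x r a * x s b ∈ H) : x (X.wf i r) a * x (X.wf i s) b ∈ H := by
  have hn := nS_mem hF f H hM (F := F) hi
  have h1 := mul_mem (mul_mem hn h) (inv_mem hn)
  have e : hF.nS i * (x r a * x s b) * (hF.nS i)⁻¹ =
      (hF.nS i * x r a * (hF.nS i)⁻¹) * (hF.nS i * x s b * (hF.nS i)⁻¹) := by group
  rw [e, hF.nS_conj_xG hi hr, hF.nS_conj_xG hi hs, eta_one hi hr, eta_one hi hs, one_mul, one_mul] at h1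
  exact h1

/-- The pairs. -/
def CC (H : Subgroup (GL chevB2.Idx F)) (p l : F) : Prop := x 6 p * x 7 l ∈ H

omit hM in
theorem CC_add {p l p' l' : F} (h : CC H p l) (h' : CC H p' l') : CC H (p + p') (l + l') := by
  unfold CC at *
  have h1 := mul_mem h h'
  have e := c67 p' l
  rw [← hF.c.xG_add, ← hF.c.xG_add]
  have e2 : x 6 p * x 7 l * (x 6 p' * x 7 l') = x 6 p * (x 7 l * x 6 p') * x 7 l' := by group
  rw [e2, e] at h1
  have e3 : x 6 p * (x 6 p' * x 7 l) * x 7 l' = x 6 p * x 6 p' * (x 7 l * x 7 l') := by group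
  rwa [e3] at h1

omit hM in
theorem CC_zero_left {l : F} : CC H 0 l ↔ x 7 l ∈ H := by
  unfold CC
  rw [hF.c.xG_zero, one_mul]

omit hM in
theorem CC_zero_right {p : F} : CC H p 0 ↔ x 6 p ∈ H := by
  unfold CC
  rw [hF.c.xG_zero, mul_one]

theorem CC_sq {p l t : F} (h : CC H p l) (ht : f t = t) : CC H (t * p) (t * p ^ 2) := by
  have h5 : x 5 p * x 7 l ∈ H := by
    have := c2_conj f H hM (i := 1) (r := 6) (s := 7) (by decide) (by decide) (by decide) h
    rwa [show X.wf 1 6 = 5 by decide +kernel, w17] at this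
  have hg : x 4 t ∈ H := x_rat hF f H hM (by decide) ht
  have e1 := comm45' t p
  have e2 := c47 t l
  have e3 : (x 4 t * (x 5 p * x 7 l))⁻¹ * ((x 5 p * x 7 l) * x 4 t) = x 6 (t * p) * x 7 (t * p ^ 2) := by
    have e4 : (x 5 p * x 7 l) * x 4 t = x 5 p * (x 7 l * x 4 t) := by group
    rw [e4, e2]
    have e5 : x 5 p * (x 4 t * x 7 l) = (x 5 p * x 4 t) * x 7 l := by group
    rw [e5, e1]
    have e6 := c67 (t * p) l
    have e7 := hF.c.xG_add 7 (t * p ^ 2) l
    have e8 := hF.c.xG_add 7 l (t * p ^ 2)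
    rw [add_comm] at e8
    calc (x 4 t * (x 5 p * x 7 l))⁻¹ * (x 4 t * x 5 p * (x 6 (t * p) * x 7 (t * p ^ 2)) * x 7 l)
        = (x 7 l)⁻¹ * (x 6 (t * p) * (x 7 (t * p ^ 2) * x 7 l)) := by group
      _ = (x 7 l)⁻¹ * (x 6 (t * p) * (x 7 l * x 7 (t * p ^ 2))) := by rw [e7, e8]
      _ = (x 7 l)⁻¹ * ((x 6 (t * p) * x 7 l) * x 7 (t * p ^ 2)) := by group
      _ = (x 7 l)⁻¹ * ((x 7 l * x 6 (t * p)) * x 7 (t * p ^ 2)) := by rw [e6]
      _ = _ := by group
  unfold CC
  rw [← e3]
  exact mul_mem (inv_mem (mul_mem hg h5)) (mul_mem h5 hg)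

theorem CC_ll {p l t : F} (h : CC H p l) (ht : f t = t) : CC H (l * t) (l * t ^ 2) := by
  have h4 : x 6 p * x 4 l ∈ H := by
    have := c2_conj f H hM (i := 0) (r := 6) (s := 7) (by decide) (by decide) (by decide) h
    rwa [w06, show X.wf 0 7 = 4 by decide +kernel] at this
  have hg : x 5 t ∈ H := x_rat hF f H hM (by decide) ht
  have e1 := comm45' l t
  have e2 := c56' t p
  have e3 : (x 6 p * x 4 l * x 5 t)⁻¹ * (x 5 t * (x 6 p * x 4 l)) = x 6 (l * t) * x 7 (l * t ^ 2) := by
    have e4 : x 5 t * (x 6 p * x 4 l) = (x 5 t * x 6 p) * x 4 l := by group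
    rw [e4, ← e2]
    have e5 : x 6 p * x 5 t * x 4 l = x 6 p * (x 5 t * x 4 l) := by group
    rw [e5, e1]
    group
  unfold CC
  rw [← e3]
  exact mul_mem (inv_mem (mul_mem h4 hg)) (mul_mem hg h4)

omit hM in
theorem CC_mix {u t : F} (h4 : x 4 u ∈ H) (h5 : x 5 t ∈ H) : CC H (u * t) (u * t ^ 2) := by
  have e1 := comm45' u t
  have e3 : (x 4 u * x 5 t)⁻¹ * (x 5 t * x 4 u) = x 6 (u * t) * x 7 (u * t ^ 2) := by
    rw [e1]
    group
  unfold CC
  rw [← e3]
  exact mul_mem (inv_mem (mul_mem h4 h5)) (mul_mem h5 h4)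

theorem rule_l {p l : F} (h : CC H p l) : x 7 (l + p ^ 2) ∈ H := by
  have h1 := CC_sq f H hM h (map_one f)
  rw [one_mul, one_mul] at h1
  have h2 := CC_add H h h1
  rw [CharTwo.add_self_eq_zero] at h2
  exact (CC_zero_left H).1 h2

omit hM in
theorem sq_surj : ∀ a : F, ∃ b : F, b ^ 2 = a := by
  have hinj : Function.Injective (fun b : F => b ^ 2) := by
    intro a b hab
    have h2 : (2 : F) = 0 := CharTwo.two_eq_zero
    have h3 : (a + b) ^ 2 = 0 := by
      have hab' : a ^ 2 = b ^ 2 := hab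
      linear_combination hab' + (b ^ 2 + a * b) * h2
    have h4 := pow_eq_zero_iff (n := 2) (by norm_num) |>.1 h3
    exact CharTwo.add_eq_zero.1 h4
  exact (Finite.injective_iff_surjective.1 hinj)

omit hM in
theorem sq_inj {a b : F} (h : a ^ 2 = b ^ 2) : a = b := by
  have h2 : (2 : F) = 0 := CharTwo.two_eq_zero
  have h3 : (a + b) ^ 2 = 0 := by
    linear_combination h + (b ^ 2 + a * b) * h2
  have h4 := pow_eq_zero_iff (n := 2) (by norm_num) |>.1 h3
  exact CharTwo.add_eq_zero.1 h4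

/-- Rational scalars. -/
theorem smul_rat {c a : F} (hc : f c = c) (ha : x 7 a ∈ H) : x 7 (c * a) ∈ H := by
  by_cases hc0 : c = 0
  · rw [hc0, zero_mul, hF.c.xG_zero]
    exact one_mem _
  obtain ⟨c', hc'⟩ := sq_surj c
  have hc'0 : c' ≠ 0 := by
    rintro rfl
    apply hc0
    rw [← hc']
    ring
  have hfc' : f c' = c' := by
    apply sq_inj
    rw [← map_pow, hc', hc]
  have hr0 : (0 : ℕ) < chevB2.rank := by decide
  have hs0 : chevB2.simple 0 < chevB2.nroots := hF.simple_lt hr0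
  set cu : Fˣ := Units.mk0 c' hc'0 with hcu
  have hcuv : (cu : F) = c' := rfl
  have h1 : hF.c.hG (chevB2.simple 0) (cu : F) ∈ H := by
    apply hM _ (hF.c.hG_mem_diagonal hs0 cu.ne_zero |> fun h => hF.c.diagonal_le_group h)
    rw [sig_hG hF, hcuv, hfc']
  rw [hF.hSimple_eq_tor ⟨0, hr0⟩ cu] at h1
  have h2 := mul_mem (mul_mem h1 ha) (inv_mem h1)
  rw [hF.tor_conj_xG _ (by decide), hF.mulSingle_chiT] at h2
  have e : ((cu ^ chevB2.cartan 0 7 : Fˣ) : F) = c := by
    rw [c07, ← hc']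
    norm_cast
  have e0 : ((⟨0, hr0⟩ : Fin chevB2.rank) : ℕ) = 0 := rfl
  rw [e0, e] at h2
  exact h2

/-- The main closure in characteristic `2`. -/
theorem b2_A (hSub : SubHyp f) {s : F} (hs : f s ≠ s) (hx : x 7 s ∈ H) : ∀ t : F, x 7 t ∈ H := by
  -- `A ⊂ B`
  have hAB : ∀ {u : F}, x 7 u ∈ H → x 6 u ∈ H := by
    intro u hu
    have h1 := CC_ll f H hM ((CC_zero_left H).2 hu) (map_one f)
    unfold CC at h1
    rw [mul_one, one_pow, mul_one] at h1
    have := mul_mem h1 (inv_mem hu)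
    rwa [mul_inv_cancel_right] at this
  have hBA : ∀ {t : F}, x 6 t ∈ H → x 7 (t ^ 2) ∈ H := by
    intro t ht
    have := rule_l f H hM ((CC_zero_right H).2 ht)
    rwa [zero_add] at this
  have hmain : ∀ {u t : F}, x 7 u ∈ H → x 6 t ∈ H → x 7 (t ^ 2 * (u + u ^ 2)) ∈ H := by
    intro u t hu ht
    have h4 := (v74 f H hM).1 hu
    have h5 := (v65 f H hM).1 ht
    have := rule_l f H hM (CC_mix H h4 h5)
    have e : u * t ^ 2 + (u * t) ^ 2 = t ^ 2 * (u + u ^ 2) := by ring
    rwa [e] at this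
  -- square roots in `A`
  have hroot : ∀ {a : F}, x 7 a ∈ H → ∃ b : F, x 7 b ∈ H ∧ b ^ 2 = a := by
    let A := Vs hF H 7
    let φ : A → A := fun a => ⟨(a : F) ^ 2, hBA (hAB a.2)⟩
    have hφ : Function.Injective φ := by
      intro a b hab
      apply Subtype.ext
      exact sq_inj (congrArg Subtype.val hab)
    have hφ' := Finite.injective_iff_surjective.1 hφ
    intro a ha
    obtain ⟨b, hb⟩ := hφ' ⟨a, ha⟩
    exact ⟨b, b.2, congrArg Subtype.val hb⟩
  have hrat : ∀ {c : F}, f c = c → x 7 c ∈ H := fun hc => x_rat hF f H hM (by decide) hc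
  set w := s + s ^ 2 with hw
  have hwa : ∀ {a : F}, x 7 a ∈ H → x 7 (w * a) ∈ H := by
    intro a ha
    obtain ⟨b, hb, rfl⟩ := hroot ha
    have := hmain hx (hAB hb)
    rwa [mul_comm] at this
  by_cases hfw : f w = w
  · -- the subring generated by `s`
    let V : AddSubgroup F :=
      { carrier := {z | ∃ a b : F, f a = a ∧ f b = b ∧ z = a + b * s}
        add_mem' := by
          rintro _ _ ⟨a, b, ha, hb, rfl⟩ ⟨a', b', ha', hb', rfl⟩
          exact ⟨a + a', b + b', by rw [map_add, ha, ha'], by rw [map_add, hb, hb'], by ring⟩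
        zero_mem' := ⟨0, 0, map_zero f, map_zero f, by ring⟩
        neg_mem' := by
          rintro _ ⟨a, b, ha, hb, rfl⟩
          exact ⟨-a, -b, by rw [map_neg, ha], by rw [map_neg, hb], by ring⟩ }
    have hV : V = ⊤ := by
      apply hSub V (fun c hc => ⟨c, 0, hc, map_zero f, by ring⟩) ?_ s ⟨0, 1, map_zero f, map_one f, by ring⟩ hs
      rintro _ ⟨a, b, ha, hb, rfl⟩ _ ⟨a', b', ha', hb', rfl⟩
      refine ⟨a * a' + b * b' * w, a * b' + a' * b + b * b', ?_, ?_, ?_⟩
      · rw [map_add, map_mul, map_mul, map_mul, ha, ha', hb, hb', hfw]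
      · rw [map_add, map_add, map_mul, map_mul, map_mul, ha, ha', hb, hb']
      · have h2 : (2 : F) = 0 := CharTwo.two_eq_zero
        rw [hw]
        linear_combination (- b * b' * s) * h2
    intro t
    have ht : t ∈ V := by
      rw [hV]
      exact AddSubgroup.mem_top t
    obtain ⟨a, b, ha, hb, rfl⟩ := ht
    rw [← hF.c.xG_add]
    exact mul_mem (hrat ha) (smul_rat f H hM hb hx)
  · -- the multiplier ring
    let S : AddSubgroup F :=
      { carrier := {z | ∀ a : F, x 7 a ∈ H → x 7 (z * a) ∈ H}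
        add_mem' := by
          intro z z' hz hz' a ha
          rw [add_mul, ← hF.c.xG_add]
          exact mul_mem (hz a ha) (hz' a ha)
        zero_mem' := by
          intro a ha
          rw [zero_mul, hF.c.xG_zero]
          exact one_mem _
        neg_mem' := by
          intro z hz a ha
          rw [neg_mul, ← hF.c.xG_inv]
          exact inv_mem (hz a ha) }
    have hS : S = ⊤ := by
      apply hSub S (fun c hc a ha => smul_rat f H hM hc ha) ?_ w (fun a ha => hwa ha) hfw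
      intro a ha b hb c hc
      rw [mul_assoc]
      exact ha _ (hb c hc)
    intro t
    have ht : t ∈ S := by
      rw [hS]
      exact AddSubgroup.mem_top t
    have := ht 1 (hrat (map_one f))
    rwa [mul_one] at this

/-- The characteristic `2` case. -/
theorem b2_two (hSub : SubHyp f) (hx : (∃ s0, f s0 ≠ s0 ∧ x 7 s0 ∈ H) ∨ ∃ p l, f p ≠ p ∧ x 6 p * x 7 l ∈ H) :
    ∀ r < chevB2.nroots, ∀ t : F, x r t ∈ H := by
  have hAB : ∀ {u : F}, x 7 u ∈ H → x 6 u ∈ H := by
    intro u hu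
    have h1 := CC_ll f H hM ((CC_zero_left H).2 hu) (map_one f)
    unfold CC at h1
    rw [mul_one, one_pow, mul_one] at h1
    have := mul_mem h1 (inv_mem hu)
    rwa [mul_inv_cancel_right] at this
  have hfin : (∃ s0, f s0 ≠ s0 ∧ x 7 s0 ∈ H) → ∀ r < chevB2.nroots, ∀ t : F, x r t ∈ H := by
    rintro ⟨s0, hs0, hx0⟩
    have h7 := b2_A f H hM hSub hs0 hx0
    exact all_of f H hM h7 (fun t => hAB (h7 t))
  by_cases hA : ∃ s0, f s0 ≠ s0 ∧ x 7 s0 ∈ H
  · exact hfin hA
  rcases hx with hx | ⟨p, l, hp, hx⟩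
  · exact absurd hx hA
  exfalso
  push Not at hA
  have hAF : ∀ {a : F}, x 7 a ∈ H → f a = a := by
    intro a ha
    by_contra hne
    exact hA a hne ha
  have hc : CC H p l := hx
  have h1 : CC H p (p ^ 2) := by
    have := CC_sq f H hM hc (map_one f)
    rwa [one_mul, one_mul] at this
  have h2 : CC H (p ^ 2) (p ^ 2) := by
    have := CC_ll f H hM h1 (map_one f)
    rwa [mul_one, one_pow, mul_one] at this
  have h3 := rule_l f H hM h2
  have hw2 : f ((p + p ^ 2) ^ 2) = (p + p ^ 2) ^ 2 := by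
    apply hAF
    have e : (p + p ^ 2) ^ 2 = p ^ 2 + (p ^ 2) ^ 2 := by
      have h2' : (2 : F) = 0 := CharTwo.two_eq_zero
      linear_combination p ^ 3 * h2'
    rw [e]
    exact h3
  have hw : f (p + p ^ 2) = p + p ^ 2 := by
    apply sq_inj
    rw [← map_pow]
    exact hw2
  have h4 : CC H p p := by
    have h5 : x 7 (p + p ^ 2) ∈ H := x_rat hF f H hM (by decide) hw
    have h6 := CC_add H h1 ((CC_zero_left H).2 h5)
    rw [add_zero] at h6
    have e : p ^ 2 + (p + p ^ 2) = p := by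
      have h2' : (2 : F) = 0 := CharTwo.two_eq_zero
      linear_combination p ^ 2 * h2'
    rwa [e] at h6
  have h5 : x 5 p * x 7 p ∈ H := by
    have := c2_conj f H hM (i := 1) (r := 6) (s := 7) (by decide) (by decide) (by decide) h4
    rwa [show X.wf 1 6 = 5 by decide +kernel, w17] at this
  have h6 : x 6 p * x 4 p ∈ H := by
    have := c2_conj f H hM (i := 0) (r := 6) (s := 7) (by decide) (by decide) (by decide) h4
    rwa [w06, show X.wf 0 7 = 4 by decide +kernel] at this
  have h7 : CC H (p * p) (p * p ^ 2) := by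
    have e1 := comm45' p p
    have e2 := c57 p p
    have e3 := c56' p p
    have e4 := c67 p p
    have e5 := c46 p p
    have e6 := c47 p p
    have e7 := c67 (p * p) p
    have e8 : (x 6 p * x 4 p * (x 5 p * x 7 p))⁻¹ * ((x 5 p * x 7 p) * (x 6 p * x 4 p)) =
        x 6 (p * p) * x 7 (p * p ^ 2) := by
      -- reorder the right factor
      have e9 : (x 5 p * x 7 p) * (x 6 p * x 4 p) = x 6 p * x 4 p * x 5 p * x 7 p * (x 6 (p * p) * x 7 (p * p ^ 2)) := by
        have e10 := hF.c.xG_add 7 p (p * p ^ 2)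
        have e11 := hF.c.xG_add 7 (p * p ^ 2) p
        rw [add_comm] at e11
        calc (x 5 p * x 7 p) * (x 6 p * x 4 p)
            = x 5 p * (x 7 p * x 6 p) * x 4 p := by group
          _ = x 5 p * (x 6 p * x 7 p) * x 4 p := by rw [e4]
          _ = (x 5 p * x 6 p) * (x 7 p * x 4 p) := by group
          _ = (x 6 p * x 5 p) * (x 4 p * x 7 p) := by rw [e3, e6]
          _ = x 6 p * (x 5 p * x 4 p) * x 7 p := by group
          _ = x 6 p * (x 4 p * x 5 p * (x 6 (p * p) * x 7 (p * p ^ 2))) * x 7 p := by rw [e1]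
          _ = x 6 p * x 4 p * x 5 p * x 6 (p * p) * (x 7 (p * p ^ 2) * x 7 p) := by group
          _ = x 6 p * x 4 p * x 5 p * x 6 (p * p) * (x 7 p * x 7 (p * p ^ 2)) := by rw [e10, e11]
          _ = x 6 p * x 4 p * x 5 p * (x 6 (p * p) * x 7 p) * x 7 (p * p ^ 2) := by group
          _ = x 6 p * x 4 p * x 5 p * (x 7 p * x 6 (p * p)) * x 7 (p * p ^ 2) := by rw [e7]
          _ = _ := by group
      rw [e9]
      group
    unfold CC
    rw [← e8]
    exact mul_mem (inv_mem (mul_mem h6 h5)) (mul_mem h5 h6)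
  have h8 := rule_l f H hM h7
  have h9 : f (p ^ 2 * (p + p ^ 2)) = p ^ 2 * (p + p ^ 2) := by
    apply hAF
    have e : p * p ^ 2 + (p * p) ^ 2 = p ^ 2 * (p + p ^ 2) := by ring
    rwa [e] at h8
  rw [map_mul, hw] at h9
  by_cases hw0 : p + p ^ 2 = 0
  · apply hp
    have h10 : p * (p + 1) = 0 := by
      linear_combination hw0
    rcases mul_eq_zero.1 h10 with h11 | h11
    · rw [h11, map_zero]
    · have h12 : p = 1 := CharTwo.add_eq_zero.1 h11
      rw [h12, map_one]
  · have h10 := mul_right_cancel₀ hw0 h9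
    apply hp
    apply sq_inj
    rw [← map_pow]
    exact h10

end two

end

end Cfsg.Agent.Lib.ChevSub.B2
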