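import Mathlib
import Cfsg.Agent.Lib.ChevSub.Rat
import Cfsg.Agent.Lib.ChevMonoN

/-!
# Monomial elements act on root vectors by the scalars of their action on root elements
-/

set_option autoImplicit false
set_option linter.unusedSectionVars false
set_option linter.unusedVariables false
set_option linter.unnecessarySimpa false

namespace Cfsg.Agent.Lib.ChevSub

open Cfsg Cfsg.Lie Matrix Cfsg.Agent.Lib.Chev Cfsg.Agent.Lib.Chev.Full Cfsg.Agent.Lib.Chev.Tri
open Cfsg.Agent.Lib.ChevTransfer Cfsg.Agent.Lib.ChevAut.SubField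
open Cfsg.Agent.Lib.ChevAut.ParabFit Cfsg.Agent.Lib.ChevInv Cfsg.Agent.Lib.ChevInv.CentG

variable {T : Tabs} {X : Extra} {R : RootTab} {D : ChevalleyDatum} (hF : Full T X R D)
variable {F : Type*} [Field F]

/-- `g` acts on the root vectors through `σ` and scalars `u`. -/
def ColAct (g : GL D.Idx F) (σ : Equiv.Perm (Fin D.nroots)) (u : Fin D.nroots → Fˣ) : Prop :=
  ∀ (s : Fin D.nroots) (row : D.Idx),
    (g : Matrix D.Idx D.Idx F) row (Sum.inr s) = if row = Sum.inr (σ s) then (u s : F) else 0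

omit hF in
theorem ColAct.one : ColAct (1 : GL D.Idx F) 1 (1 : Fin D.nroots → Fˣ) := by
  intro s row
  by_cases h : row = Sum.inr s
  · subst h
    simp
  · have h' : row ≠ Sum.inr ((1 : Equiv.Perm (Fin D.nroots)) s) := h
    rw [if_neg h', Units.val_one, Matrix.one_apply_ne h]

theorem ColAct.mul {g₁ g₂ : GL D.Idx F} {σ₁ σ₂ : Equiv.Perm (Fin D.nroots)}
    {u₁ u₂ : Fin D.nroots → Fˣ} (h₁ : ColAct g₁ σ₁ u₁) (h₂ : ColAct g₂ σ₂ u₂) :
    ColAct (g₁ * g₂) (σ₁ * σ₂) (fun s => u₁ (σ₂ s) * u₂ s) := by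
  intro s row
  rw [Units.val_mul, Matrix.mul_apply]
  rw [Finset.sum_eq_single (Sum.inr (σ₂ s))]
  · rw [h₁ (σ₂ s) row, h₂ s (Sum.inr (σ₂ s)), if_pos rfl]
    by_cases hr : row = Sum.inr (σ₁ (σ₂ s))
    · have hr' : row = Sum.inr ((σ₁ * σ₂) s) := hr
      rw [if_pos hr, if_pos hr', Units.val_mul]
    · have hr' : row ≠ Sum.inr ((σ₁ * σ₂) s) := hr
      rw [if_neg hr, if_neg hr', zero_mul]
  · intro b _ hb
    rw [h₂ s b, if_neg hb, mul_zero]
  · intro h
    exact absurd (Finset.mem_univ _) h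

theorem ColAct.inv {g : GL D.Idx F} {σ : Equiv.Perm (Fin D.nroots)}
    {u : Fin D.nroots → Fˣ} (h : ColAct g σ u) :
    ColAct g⁻¹ σ⁻¹ (fun s => (u (σ⁻¹ s))⁻¹) := by
  intro s row
  have e : ((g⁻¹ * g : GL D.Idx F) : Matrix D.Idx D.Idx F) row (Sum.inr (σ⁻¹ s)) =
      (1 : Matrix D.Idx D.Idx F) row (Sum.inr (σ⁻¹ s)) := by
    rw [inv_mul_cancel]
    rfl
  rw [Units.val_mul, Matrix.mul_apply, Finset.sum_eq_single (Sum.inr s)] at e
  · have hs1 : σ (σ⁻¹ s) = s := by simp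
    rw [h (σ⁻¹ s) (Sum.inr s), hs1, if_pos rfl] at e
    have hu : ((u (σ⁻¹ s) : Fˣ) : F) ≠ 0 := (u (σ⁻¹ s)).ne_zero
    rw [Units.val_inv_eq_inv_val]
    have e2 : ((g⁻¹ : GL D.Idx F) : Matrix D.Idx D.Idx F) row (Sum.inr s) =
        (1 : Matrix D.Idx D.Idx F) row (Sum.inr (σ⁻¹ s)) * ((u (σ⁻¹ s) : Fˣ) : F)⁻¹ := by
      rw [← e]
      field_simp
    rw [e2]
    by_cases hr : row = Sum.inr (σ⁻¹ s)
    · subst hr
      rw [Matrix.one_apply_eq, if_pos rfl, one_mul]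
    · rw [Matrix.one_apply_ne hr, if_neg hr, zero_mul]
  · intro b _ hb
    have hs1 : σ (σ⁻¹ s) = s := by simp
    rw [h (σ⁻¹ s) b, hs1, if_neg hb, mul_zero]
  · intro h'
    exact absurd (Finset.mem_univ _) h'

include hF

theorem colAct_tor (c : Fin D.rank → Fˣ) :
    ColAct (tor R D c) 1 (fun s => chiT D c s) := by
  intro s row
  have e : ((tor R D c : GL D.Idx F) : Matrix D.Idx D.Idx F) = _ := coe_diagG D (chr R D.rank (cartanMap D c))
  rw [e]
  by_cases h : row = Sum.inr s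
  · subst h
    rw [Matrix.diagonal_apply_eq, Sum.elim_inr, Equiv.Perm.one_apply, if_pos rfl]
    show _ = ((chiT D c s : Fˣ) : F)
    rw [hF.chiT_eq_chr c s.2]
  · rw [Matrix.diagonal_apply_ne _ h, Equiv.Perm.one_apply, if_neg h]

theorem colAct_nS (hm : ChevMonoN.checkMono T X D = true) {i : ℕ} (hi : i < D.rank) :
    ColAct (hF.nS i) (hF.wPerm hi) (hF.etaU (F := F) hi) := by
  intro s row
  rw [hF.coe_nS, ChevMonoN.nMat_e (hF.c.sound F) hF.c.rank_eq hF.c.nroots_eq hm hi s row]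
  cases row with
  | inl c => simp
  | inr s' =>
    simp only [Sum.elim_inr, Sum.inr.injEq]
    by_cases h : (s' : ℕ) = X.wf i s
    · have h2 : s' = hF.wPerm hi s := Fin.ext h
      rw [if_pos h, if_pos h2]
      rfl
    · have h2 : s' ≠ hF.wPerm hi s := fun e => h (congrArg _ e)
      rw [if_neg h, if_neg h2]

/-- Monomial elements: the two actions agree. -/
theorem exists_good (hm : ChevMonoN.checkMono T X D = true) {g : GL D.Idx F}
    (hg : g ∈ D.monomialSubgroup F) :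
    ∃ σ u, hF.RootAct g σ u ∧ ColAct g σ u := by
  let K : Subgroup (GL D.Idx F) :=
    { carrier := {g | ∃ σ u, hF.RootAct g σ u ∧ ColAct g σ u}
      one_mem' := ⟨1, 1, hF.rootAct_one, ColAct.one⟩
      mul_mem' := by
        rintro a b ⟨σ, u, ha, ha'⟩ ⟨σ', u', hb, hb'⟩
        exact ⟨_, _, ha.mul hb, ha'.mul hb'⟩
      inv_mem' := by
        rintro a ⟨σ, u, ha, ha'⟩
        exact ⟨_, _, ha.inv, ha'.inv⟩ }
  have hle : D.monomialSubgroup F ≤ K := by
    rw [hF.monomial_eq]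
    apply sup_le
    · intro h hh
      obtain ⟨c, rfl⟩ := (hF.mem_diagonal_iff).1 hh
      exact ⟨_, _, hF.rootAct_tor c, colAct_tor hF c⟩
    · rw [nClosure, Subgroup.closure_le]
      rintro g ⟨i, hi, rfl⟩
      exact ⟨_, _, hF.rootAct_nS hi, colAct_nS hF hm hi⟩
  exact hle hg

end Cfsg.Agent.Lib.ChevSub
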