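import Mathlib
import Cfsg.Agent.Lib.ChevInv.Main
import Cfsg.Agent.Lib.Chev.RelD4
import Cfsg.Agent.Lib.Chev.RootD4

/-!
# Ranks of two involutions in type D4
-/

set_option autoImplicit false
set_option maxRecDepth 100000

namespace Cfsg.Agent.Lib.ChevSub.RankD4

open Cfsg Cfsg.Lie Matrix Cfsg.Agent.Lib.Chev Cfsg.Agent.Lib.ChevInv
open Cfsg.Agent.Lib.Chev.TabD4 Cfsg.Agent.Lib.Chev.RootD4T

theorem hF : Full T X R chevD4 := ⟨RelD4.checks, RootD4.checks⟩

def A0 : List ℕ := [0, 134217728, 0, 0, 134217741, 262144, 524288, 1048576, 2097152, 0, 8388608, 16777216, 33554432, 67108864, 0, 0, 0, 0, 0, 0, 0, 0, 0, 0, 0, 0, 0, 0]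
def B0 : List ℕ := [134217728, 134217741, 262144, 524288, 1048576, 2097152, 8388608, 16777216, 33554432, 67108864]
def C0 : List ℕ := [0, 1, 0, 0, 2, 4, 8, 16, 32, 0, 64, 128, 256, 512, 0, 0, 0, 0, 0, 0, 0, 0, 0, 0, 0, 0, 0, 0]
def P0 : List ℕ := [3, 0, 0, 0, 0, 0, 0, 0, 0, 0, 0, 0, 0, 0, 0, 0, 0, 0, 4, 8, 16, 32, 0, 64, 128, 256, 512, 1]
def Q0 : List ℕ := [2, 16, 32, 64, 128, 256, 1024, 2048, 4096, 8192]
theorem a0 : A0 = minusOne T.dim (prodM T [23]) := by decide +kernel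
theorem b0 : A0 = C0.map (combo B0) := by decide +kernel
theorem d0 : B0 = Q0.map (combo A0) := by decide +kernel
theorem e0 : idC 10 = B0.map (combo P0) := by decide +kernel
theorem rk0 {F : Type*} [Field F] [CharP F 2] :
    (((xL hF F [23] : GL chevD4.Idx F) : Matrix chevD4.Idx chevD4.Idx F) - 1).rank = 10 :=
  rank_xL hF a0 (by decide +kernel) (by decide +kernel) (by decide +kernel) b0 d0 e0

def A1 : List ℕ := [0, 196608, 0, 0, 0, 448, 256, 256, 0, 0, 14336, 8192, 8192, 0, 131076, 65544, 0, 0, 3670016, 2097152, 2097152, 0, 0, 117440512, 67108864, 67108864, 0, 0]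
def B1 : List ℕ := [196608, 448, 256, 14336, 8192, 131076, 65544, 3670016, 2097152, 117440512, 67108864]
def C1 : List ℕ := [0, 1, 0, 0, 0, 2, 4, 4, 0, 0, 8, 16, 16, 0, 32, 64, 0, 0, 128, 256, 256, 0, 0, 512, 1024, 1024, 0, 0]
def P1 : List ℕ := [0, 0, 32, 65, 0, 0, 6, 0, 4, 0, 0, 24, 0, 16, 0, 0, 1, 0, 0, 384, 0, 256, 0, 0, 1536, 0, 1024, 0]
def Q1 : List ℕ := [2, 32, 64, 1024, 2048, 16384, 32768, 262144, 524288, 8388608, 16777216]
theorem a1 : A1 = minusOne T.dim (prodM T [13, 12]) := by decide +kernel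
theorem b1 : A1 = C1.map (combo B1) := by decide +kernel
theorem d1 : B1 = Q1.map (combo A1) := by decide +kernel
theorem e1 : idC 11 = B1.map (combo P1) := by decide +kernel
theorem rk1 {F : Type*} [Field F] [CharP F 2] :
    (((xL hF F [13, 12] : GL chevD4.Idx F) : Matrix chevD4.Idx chevD4.Idx F) - 1).rank = 11 :=
  rank_xL hF a1 (by decide +kernel) (by decide +kernel) (by decide +kernel) b1 d1 e1

end Cfsg.Agent.Lib.ChevSub.RankD4
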