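import Mathlib
import Cfsg.Agent.Lib.ChevSub.Rat
import Cfsg.Agent.Lib.StronglyEmbedded

/-!
# Overgroups of a subfield subgroup in characteristic two

A group with a strongly embedded subgroup has only one class of involutions; together with
the rational Borel-Tits property this shows that an overgroup `H` of `G_σ` with `H ∩ U ≤ G_σ`
is `G_σ`, as soon as `G_σ` contains two involutions not conjugate in `G`.
-/

set_option autoImplicit false
set_option linter.unusedSectionVars false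
set_option linter.unusedVariables false
set_option linter.unnecessarySimpa false

namespace Cfsg.Agent.Lib.ChevSub

open Cfsg Cfsg.Lie Matrix Cfsg.Agent.Lib.Chev Cfsg.Agent.Lib.Chev.Full
open Cfsg.Agent.Lib.ChevTransfer Cfsg.Agent.Lib.ChevAut.SubField Cfsg.Agent.Lib.StronglyEmbedded

section abstract

variable {A : Type*} [Group A] [Finite A]

/-- A strongly embedded subgroup contains involutions of one class only. -/
theorem dihedral_contra (M' : Subgroup A) (hne : M' ≠ ⊤) (hSE : Cfsg.IsStronglyEmbedded M')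
    {t1 t2 : A} (h1 : t1 ∈ M') (h2 : t2 ∈ M') (o1 : orderOf t1 = 2) (o2 : orderOf t2 = 2)
    (hnc : ¬ IsConj t1 t2) : False := by
  classical
  have heven : Even (Nat.card M') := Nat.not_odd_iff_even.1 (not_odd_card_of_mem h1 o1)
  obtain ⟨hC, hFus⟩ := (isStronglyEmbedded_iff_fusion M' hne heven).1 hSE
  obtain ⟨g, hg⟩ : ∃ g, g ∉ M' := by
    by_contra hcon
    push Not at hcon
    exact hne ((Subgroup.eq_top_iff' M').2 hcon)
  have hs1 : t1 * t1 = 1 := by
    have := pow_orderOf_eq_one t1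
    rw [o1, pow_two] at this
    exact this
  have hs2 : t2 * t2 = 1 := by
    have := pow_orderOf_eq_one t2
    rw [o2, pow_two] at this
    exact this
  set s := g * t1 * g⁻¹ with hs
  have hss : s * s = 1 := by
    rw [hs]
    calc g * t1 * g⁻¹ * (g * t1 * g⁻¹) = g * (t1 * t1) * g⁻¹ := by group
      _ = 1 := by rw [hs1]; group
  have ht2inv : t2⁻¹ = t2 := inv_eq_of_mul_eq_one_right hs2
  have hsinv : s⁻¹ = s := inv_eq_of_mul_eq_one_right hss
  set r := t2 * s with hr
  have hc2 : t2 * r * t2⁻¹ = r⁻¹ := by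
    rw [hr, ht2inv, _root_.mul_inv_rev, ht2inv, hsinv]
    calc t2 * (t2 * s) * t2 = (t2 * t2) * s * t2 := by group
      _ = s * t2 := by rw [hs2, one_mul]
  have hcs : s * r * s⁻¹ = r⁻¹ := by
    rw [hr, hsinv, _root_.mul_inv_rev, ht2inv, hsinv]
    calc s * (t2 * s) * s = s * t2 * (s * s) := by group
      _ = s * t2 := by rw [hss, mul_one]
  have hpos : 0 < orderOf r := orderOf_pos r
  have hconj : ∀ k : ℕ, t2 * r ^ k * t2⁻¹ = (r ^ k)⁻¹ := by
    intro k
    rw [← conj_pow, hc2, inv_pow]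
  have hconjs : ∀ k : ℕ, s * r ^ k * s⁻¹ = (r ^ k)⁻¹ := by
    intro k
    rw [← conj_pow, hcs, inv_pow]
  rcases Nat.even_or_odd' (orderOf r) with ⟨k, hk | hk⟩
  · -- even order: a central involution
    have hk0 : k ≠ 0 := by
      rintro rfl
      omega
    set z := r ^ k with hz
    have hoz : orderOf z = 2 := by
      have h3 := orderOf_pow_orderOf_div (x := r) (n := 2) (by omega) ⟨k, hk⟩
      have h4 : orderOf r / 2 = k := by omega
      rw [h4] at h3
      exact h3
    have hzz : z * z = 1 := by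
      have := pow_orderOf_eq_one z
      rw [hoz, pow_two] at this
      exact this
    have hzinv : z⁻¹ = z := inv_eq_of_mul_eq_one_right hzz
    have hzt : z ∈ M' := by
      apply hC t2 h2 o2
      rw [Subgroup.mem_centralizer_singleton_iff]
      have h3 := hconj k
      rw [← hz, hzinv] at h3
      calc z * t2 = (t2 * z * t2⁻¹) * t2 := by rw [h3]
        _ = t2 * z := by group
    have hzs : z * s = s * z := by
      have h3 := hconjs k
      rw [← hz, hzinv] at h3
      calc z * s = (s * z * s⁻¹) * s := by rw [h3]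
        _ = s * z := by group
    have hz'm : g⁻¹ * z * g ∈ M' := by
      apply hC t1 h1 o1
      rw [Subgroup.mem_centralizer_singleton_iff]
      have e1 : g⁻¹ * z * g * t1 = g⁻¹ * (z * s) * g := by
        rw [hs]
        group
      have e2 : t1 * (g⁻¹ * z * g) = g⁻¹ * (s * z) * g := by
        rw [hs]
        group
      rw [e1, e2, hzs]
    have hoz' : orderOf (g⁻¹ * z * g) = 2 := by
      rw [← hoz]
      apply Cfsg.Agent.Lib.InvolutionFusion.orderOf_eq_of_isConj
      exact isConj_iff.2 ⟨g, by group⟩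
    obtain ⟨h, hh, he⟩ := hFus _ hz'm z hzt hoz' hoz (isConj_iff.2 ⟨g, by group⟩)
    apply hg
    have h3 : g * h⁻¹ ∈ M' := by
      apply hC z hzt hoz
      rw [Subgroup.mem_centralizer_singleton_iff]
      calc g * h⁻¹ * z = g * (h⁻¹ * (h * (g⁻¹ * z * g) * h⁻¹)) := by rw [he]; group
        _ = z * (g * h⁻¹) := by group
    have h4 : g = (g * h⁻¹) * h := by group
    rw [h4]
    exact M'.mul_mem h3 hh
  · -- odd order: conjugate
    apply hnc
    have h3 : IsConj t1 s := isConj_iff.2 ⟨g, rfl⟩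
    have h4 : IsConj t2 s := by
      refine isConj_iff.2 ⟨r ^ k, ?_⟩
      have e1 : r ^ k * t2 * (r ^ k)⁻¹ = t2 * (t2 * r ^ k * t2⁻¹) * (r ^ k)⁻¹ := by
        rw [ht2inv]
        calc r ^ k * t2 * (r ^ k)⁻¹ = (t2 * t2) * r ^ k * t2 * (r ^ k)⁻¹ := by rw [hs2, one_mul]
          _ = _ := by group
      rw [e1, hconj k]
      have e2 : r ^ (2 * k + 1) = 1 := by
        rw [← hk]
        exact pow_orderOf_eq_one r
      have e3 : (r ^ k)⁻¹ * (r ^ k)⁻¹ = r := by
        have e4 : r ^ (2 * k + 1) = r ^ k * r ^ k * r := by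
          rw [pow_succ, two_mul, pow_add]
        rw [e4] at e2
        have e5 : r ^ k * r ^ k = r⁻¹ := eq_inv_of_mul_eq_one_left e2
        calc (r ^ k)⁻¹ * (r ^ k)⁻¹ = (r ^ k * r ^ k)⁻¹ := (_root_.mul_inv_rev _ _).symm
          _ = r := by rw [e5, inv_inv]
      rw [mul_assoc, e3, hr, ← mul_assoc, hs2, one_mul]
    exact h3.trans h4.symm

end abstract

variable {T : Tabs} {X : Extra} {R : RootTab} {D : ChevalleyDatum} (hF : Full T X R D)
variable {F : Type*} [Field F] (f : F ≃+* F)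

/-- The fixed points of `σ` in `G`. -/
def fixSub (D : ChevalleyDatum) {F : Type*} [Field F] (f : F ≃+* F) : Subgroup (GL D.Idx F) where
  carrier := {g | g ∈ D.group F ∧ glMap D f g = g}
  mul_mem' := by
    rintro a b ⟨h1, h2⟩ ⟨h3, h4⟩
    exact ⟨mul_mem h1 h3, by rw [map_mul, h2, h4]⟩
  one_mem' := ⟨one_mem _, map_one _⟩
  inv_mem' := by
    rintro a ⟨h1, h2⟩
    exact ⟨inv_mem h1, by rw [map_inv, h2]⟩

theorem mem_fixSub {g : GL D.Idx F} : g ∈ fixSub D f ↔ g ∈ D.group F ∧ glMap D f g = g := Iff.rfl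

include hF

section Over

variable (H : Subgroup (GL D.Idx F)) (hHG : H ≤ D.group F)
  (hM : ∀ g ∈ D.group F, glMap D f g = g → g ∈ H)
  (hNS : ∀ u ∈ H, u ∈ D.posUnipotent F → glMap D f u = u)

include hHG hM hNS

/-- The characteristic two case. -/
theorem over_two [Fintype F] [CharP F 2] (hT2 : T2Tab R D) {t1 t2 : GL D.Idx F}
    (h1 : t1 ∈ D.group F) (h2 : t2 ∈ D.group F) (f1 : glMap D f t1 = t1) (f2 : glMap D f t2 = t2)
    (o1 : orderOf t1 = 2) (o2 : orderOf t2 = 2) (hnc : ∀ g ∈ D.group F, g * t1 * g⁻¹ ≠ t2)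
    {x : GL D.Idx F} (hx : x ∈ H) : glMap D f x = x := by
  classical
  by_contra hxne
  haveI hfin : Finite ↥H := inferInstance
  haveI : Fact (Nat.Prime 2) := ⟨Nat.prime_two⟩
  let M' : Subgroup ↥H := (fixSub D f).subgroupOf H
  have hmem : ∀ y : ↥H, y ∈ M' ↔ glMap D f y.1 = y.1 := by
    intro y
    rw [Subgroup.mem_subgroupOf]
    exact ⟨fun h => h.2, fun h => ⟨hHG y.2, h⟩⟩
  have hne : M' ≠ ⊤ := by
    intro h
    apply hxne
    have : (⟨x, hx⟩ : ↥H) ∈ M' := by
      rw [h]
      exact Subgroup.mem_top _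
    exact (hmem _).1 this
  have h1H : t1 ∈ H := hM t1 h1 f1
  have h2H : t2 ∈ H := hM t2 h2 f2
  have h1M : (⟨t1, h1H⟩ : ↥H) ∈ M' := (hmem _).2 f1
  have h2M : (⟨t2, h2H⟩ : ↥H) ∈ M' := (hmem _).2 f2
  have o1' : orderOf (⟨t1, h1H⟩ : ↥H) = 2 := by
    rw [Subgroup.orderOf_mk]
    exact o1
  have o2' : orderOf (⟨t2, h2H⟩ : ↥H) = 2 := by
    rw [Subgroup.orderOf_mk]
    exact o2
  obtain ⟨P⟩ : Nonempty (Sylow 2 ↥M') := inferInstance
  have hdvd : 2 ∣ Nat.card ↥M' := by
    have h3 : orderOf (⟨⟨t1, h1H⟩, h1M⟩ : ↥M') = 2 := by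
      rw [Subgroup.orderOf_mk]
      exact o1'
    rw [← h3]
    exact orderOf_dvd_natCard _
  have hP : (P : Subgroup ↥M') ≠ ⊥ := P.ne_bot_of_dvd_card hdvd
  have hSE : Cfsg.IsStronglyEmbedded M' := by
    refine (isStronglyEmbedded_iff_normalizer M' hne P hP).2 ?_
    intro Y hYP hYne y hy
    rw [hmem]
    let U : Subgroup (GL D.Idx F) := (Y.map M'.subtype).map H.subtype
    have hUmem : ∀ u, u ∈ U ↔ ∃ hu : u ∈ H, (⟨u, hu⟩ : ↥H) ∈ Y.map M'.subtype := by
      intro u
      constructor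
      · rintro ⟨v, hv, rfl⟩
        exact ⟨v.2, hv⟩
      · rintro ⟨hu, hv⟩
        exact ⟨⟨u, hu⟩, hv, rfl⟩
    have hUG : U ≤ D.group F := by
      intro u hu
      obtain ⟨h3, _⟩ := (hUmem u).1 hu
      exact hHG h3
    have hUfix : ∀ u ∈ U, glMap D f u = u := by
      intro u hu
      obtain ⟨h3, v, _, hv⟩ := (hUmem u).1 hu
      have h4 := (hmem _).1 v.2
      have h5 : (v : ↥H) = ⟨u, h3⟩ := hv
      rw [h5] at h4
      exact h4
    have hUp : IsPGroup 2 ↥U := ((P.isPGroup'.to_le hYP).map _).map _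
    have hUne : U ≠ ⊥ := by
      intro h
      apply hYne
      have h3 := (Subgroup.map_eq_bot_iff_of_injective _ H.subtype_injective).1 h
      exact (Subgroup.map_eq_bot_iff_of_injective _ M'.subtype_injective).1 h3
    have hyN : y.1 ∈ Subgroup.normalizer (U : Set (GL D.Idx F)) := by
      rw [Subgroup.mem_set_normalizer_iff]
      intro u
      have h3 := Subgroup.mem_set_normalizer_iff.1 hy
      constructor
      · intro hu
        obtain ⟨h4, h5⟩ := (hUmem u).1 hu
        have h6 := (h3 ⟨u, h4⟩).1 h5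
        exact (hUmem _).2 ⟨mul_mem (mul_mem y.2 h4) (inv_mem y.2), h6⟩
      · intro hu
        obtain ⟨h4, h5⟩ := (hUmem _).1 hu
        have h7 : u ∈ H := by
          have e : u = y.1⁻¹ * (y.1 * u * y.1⁻¹) * y.1 := by group
          rw [e]
          exact mul_mem (mul_mem (inv_mem y.2) h4) y.2
        exact (hUmem u).2 ⟨h7, (h3 ⟨u, h7⟩).2 h5⟩
    exact normalizer_fixed hF f H hHG hM hNS hT2 U hUG hUfix hUp hUne y.2 hyN
  refine dihedral_contra M' hne hSE h1M h2M o1' o2' ?_
  intro hconj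
  obtain ⟨g, hg⟩ := isConj_iff.1 hconj
  exact hnc g.1 (hHG g.2) (congrArg Subtype.val hg)

end Over

end Cfsg.Agent.Lib.ChevSub
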